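import Mathlib.Data.Fintype.Prod
import Mathlib.Data.ZMod.Defs

/-!
The seven-point plane with a cyclic symmetry, verified by evaluation.
-/

set_option autoImplicit false

namespace CfsgLib.WeakJ1

/-- third point of the line through `a`, `b`, the lines being `{i, i+1, i+j}` -/
def third (j a b : Fin 7) : Fin 7 :=
  if b = a + 1 then a + j else if a = b + 1 then b + j else if b = a + j then a + 1
  else if a = b + j then b + 1 else if b + 1 = a + j then a - 1 else b - 1

/-- the six ways of reading a line -/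
def OnLine (j a b c : Fin 7) (i : Fin 7) : Prop :=
  (a = i ∧ b = i + 1 ∧ c = i + j) ∨ (a = i + 1 ∧ b = i ∧ c = i + j) ∨ (a = i ∧ b = i + j ∧ c = i + 1) ∨
  (a = i + j ∧ b = i ∧ c = i + 1) ∨ (a = i + 1 ∧ b = i + j ∧ c = i) ∨ (a = i + j ∧ b = i + 1 ∧ c = i)

instance (j a b c i : Fin 7) : Decidable (OnLine j a b c i) := by unfold OnLine; infer_instance

theorem third_line : ∀ j : Fin 7, ¬ (j = 3 ∨ j = 5) ∨ ∀ a b : Fin 7, a = b ∨ ∃ i, OnLine j a b (third j a b) i := by
  decide +kernel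

/-- the permutation fixing `0` determined by the images of two points -/
def perm2 (j a b pa pb x : Fin 7) : Fin 7 :=
  if x = 0 then 0 else if x = a then pa else if x = b then pb else if x = third j a b then third j pa pb
  else if x = third j 0 a then third j 0 pa else if x = third j 0 b then third j 0 pb
  else third j 0 (third j pa pb)

theorem automizer_rigid : ∀ j a b pa pb : Fin 7,
    ¬ ((j = 3 ∨ j = 5) ∧ a ≠ b ∧ a ≠ 0 ∧ b ≠ 0 ∧ third j a b ≠ 0 ∧
      (pa = a ∨ pa = b ∨ pa = third j a b) ∧ (pb = a ∨ pb = b ∨ pb = third j a b) ∧ pa ≠ pb) ∨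
    (pa = a ∧ pb = b) ∨ (pa = b ∧ pb = third j a b) ∨ (pa = third j a b ∧ pb = a) ∨
    ∃ m : Fin 7, ∃ x : Fin 7, (x = a ∨ x = b ∨ x = third j a b) ∧
      ¬ (perm2 j a b pa pb (m + x) - perm2 j a b pa pb m = a ∨
         perm2 j a b pa pb (m + x) - perm2 j a b pa pb m = b ∨
         perm2 j a b pa pb (m + x) - perm2 j a b pa pb m = third j a b) := by
  decide +kernel

theorem perm2_cases : ∀ j a b x : Fin 7, ¬ ((j = 3 ∨ j = 5) ∧ a ≠ b ∧ a ≠ 0 ∧ b ≠ 0 ∧ third j a b ≠ 0) ∨
    x = 0 ∨ x = a ∨ x = b ∨ x = third j a b ∨ x = third j 0 a ∨ x = third j 0 b ∨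
    x = third j 0 (third j a b) := by
  decide +kernel

theorem plane_type : ∀ j : Fin 7, j = 0 ∨ j = 1 ∨ j = 3 ∨ j = 5 ∨ j = 2 ∨ j = 4 ∨ j = 6 := by decide +kernel

end CfsgLib.WeakJ1
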