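import Cfsg.Agent.WeakClosureJ1.Transitive
import Cfsg.Agent.WeakClosureJ1.Plane

/-!
The Sylow subgroup centralizes `E`, and `C(t) = W C(W)`.
-/

set_option autoImplicit false
set_option linter.unusedSectionVars false
set_option linter.style.haveILetI false

namespace CfsgLib.WeakJ1

open Subgroup CfsgLib.JankoOrder

universe u

variable {G : Type u} [Group G] [Finite G]

namespace Sys

variable (D : Sys G)

theorem exists_plane : ∃ j : Fin 7, (j = 3 ∨ j = 5) ∧ ∀ i : Fin 7, D.εF i * D.εF (i + 1) = D.εF (i + j) := by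
  have hne : D.εF 0 * D.εF 1 ≠ 1 := fun h => by
    have h2 : D.εF 0 = D.εF 1 := by
      rw [eq_inv_of_mul_eq_one_left h, inv_eq_of_mul_eq_one_right (D.E_sq (D.εF_mem 1))]
    exact absurd (D.εF_inj h2) (by decide)
  obtain ⟨j, hj⟩ := D.εF_surj (mul_mem (D.εF_mem 0) (D.εF_mem 1)) hne
  have key : ∀ i : Fin 7, D.εF i * D.εF (i + 1) = D.εF (i + j) := by
    intro i
    have h0 := congrArg (fun z => D.σ ^ i.val * z * (D.σ ^ i.val)⁻¹) hj
    simp only [D.εF_add] at h0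
    rw [show D.σ ^ i.val * (D.εF 0 * D.εF 1) * (D.σ ^ i.val)⁻¹ =
      (D.σ ^ i.val * D.εF 0 * (D.σ ^ i.val)⁻¹) * (D.σ ^ i.val * D.εF 1 * (D.σ ^ i.val)⁻¹) by group,
      D.εF_add, D.εF_add] at h0
    have hi : Fin.ofNat 7 i.val = i := Fin.ofNat_val_eq_self i
    rw [hi] at h0
    rw [add_comm i j, h0]
    congr 1
    · congr 1; rw [zero_add]
    · congr 1; rw [add_comm]
  have cancel : ∀ {a b c : Fin 7}, D.εF a * D.εF b = D.εF c →
      D.εF a * D.εF c = D.εF b ∧ D.εF c * D.εF b = D.εF a := by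
    intro a b c h
    constructor <;> rw [← h]
    · rw [← mul_assoc, D.E_sq (D.εF_mem a), one_mul]
    · rw [mul_assoc, D.E_sq (D.εF_mem b), mul_one]
  have hswap : ∀ a b : Fin 7, D.εF a * D.εF b = D.εF b * D.εF a := fun a b =>
    D.E_comm (D.εF_mem a) (D.εF_mem b)
  have k0 := key 0
  have k1 := key 1
  have k6 := key 6
  simp only [zero_add] at k0 k1 k6
  refine ⟨j, ?_, key⟩
  rcases plane_type j with rfl | rfl | rfl | rfl | rfl | rfl | rfl
  · exact absurd (by simpa using k0) (D.εF_ne 1)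
  · exact absurd (by simpa using k0) (D.εF_ne 0)
  · exact Or.inl rfl
  · exact Or.inr rfl
  · -- `ε₀ ε₁ = ε₂` and `ε₁ ε₂ = ε₃`
    exfalso
    have h1 := (cancel k0).2
    rw [hswap 2 1] at h1
    have h2 : D.εF (1 + 2 : Fin 7) = D.εF 0 := by rw [← k1]; exact h1
    exact absurd (D.εF_inj h2) (by decide)
  · -- `ε₀ ε₁ = ε₄` and `ε₄ ε₅ = ε₁`
    exfalso
    have k4 := key 4
    have h1 := (cancel k0).2
    rw [hswap 4 1] at h1
    have h2 := (cancel k4).1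
    rw [show ((4 : Fin 7) + 4) = 1 by decide, show ((4 : Fin 7) + 1) = 5 by decide] at h2
    rw [hswap 4 1, h1] at h2
    exact absurd (D.εF_inj h2) (by decide)
  · -- `ε₀ ε₁ = ε₆` and `ε₆ ε₀ = ε₅`
    exfalso
    have h1 := (cancel k0).1
    rw [hswap 0 6] at h1
    rw [show ((6 : Fin 7) + 1) = 0 by decide, h1] at k6
    exact absurd (D.εF_inj k6) (by decide)

/-- The type of the plane. -/
noncomputable def j : Fin 7 := D.exists_plane.choose

theorem j_spec : (D.j = 3 ∨ D.j = 5) ∧ ∀ i : Fin 7, D.εF i * D.εF (i + 1) = D.εF (i + D.j) :=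
  D.exists_plane.choose_spec

theorem εF_third {a b : Fin 7} (h : a ≠ b) : D.εF a * D.εF b = D.εF (third D.j a b) := by
  obtain ⟨i, hi⟩ := (((third_line D.j).resolve_left (fun h => h D.j_spec.1)) a b).resolve_left h
  have k := D.j_spec.2 i
  have sq : ∀ x : Fin 7, D.εF x * D.εF x = 1 := fun x => D.E_sq (D.εF_mem x)
  have k' : D.εF (i + 1) * D.εF i = D.εF (i + D.j) := by rw [D.E_comm (D.εF_mem _) (D.εF_mem _), k]
  have p1 : D.εF i * D.εF (i + D.j) = D.εF (i + 1) := by rw [← k, ← mul_assoc, sq, one_mul]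
  have p2 : D.εF (i + D.j) * D.εF i = D.εF (i + 1) := by rw [D.E_comm (D.εF_mem _) (D.εF_mem _), p1]
  have p3 : D.εF (i + 1) * D.εF (i + D.j) = D.εF i := by rw [← k', ← mul_assoc, sq, one_mul]
  have p4 : D.εF (i + D.j) * D.εF (i + 1) = D.εF i := by rw [D.E_comm (D.εF_mem _) (D.εF_mem _), p3]
  rcases hi with ⟨ha, hb, hc⟩ | ⟨ha, hb, hc⟩ | ⟨ha, hb, hc⟩ | ⟨ha, hb, hc⟩ | ⟨ha, hb, hc⟩ | ⟨ha, hb, hc⟩ <;>
    rw [hc, ha, hb]
  exacts [k, k', p1, p2, p3, p4]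

theorem L_preserved {d : G} (hdt : d * D.t = D.t * d) (hdE : ∀ a ∈ D.E, d * a * d⁻¹ ∈ D.E) {x : G}
    (hx : x = D.v ∨ x = D.w ∨ x = D.v * D.w) :
    d * x * d⁻¹ = D.v ∨ d * x * d⁻¹ = D.w ∨ d * x * d⁻¹ = D.v * D.w := by
  have hxE : x ∈ D.E := by
    rcases hx with rfl | rfl | rfl
    exacts [D.v_mem, D.w_mem, mul_mem D.v_mem D.w_mem]
  obtain ⟨p, q, hpq⟩ : ∃ p q : Cen, x = D.φ (p * q * p⁻¹ * q⁻¹) := by
    obtain ⟨⟨p, q, h1⟩, ⟨p', q', h2⟩, ⟨p'', q'', h3⟩⟩ := commutators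
    rcases hx with rfl | rfl | rfl
    · exact ⟨p, q, by rw [h1]; rfl⟩
    · exact ⟨p', q', by rw [h2]; rfl⟩
    · exact ⟨p'', q'', by rw [h3, map_mul]; rfl⟩
  obtain ⟨P, hP⟩ := D.conj_W hdt (x := D.φ p) ⟨p, rfl⟩
  obtain ⟨Q, hQ⟩ := D.conj_W hdt (x := D.φ q) ⟨q, rfl⟩
  have himg : D.φ (P * Q * P⁻¹ * Q⁻¹) = d * x * d⁻¹ := by
    rw [hpq]; simp only [map_mul, map_inv, hP, hQ]; group
  obtain ⟨k, hk, hkd⟩ := D.mem_E.mp (hdE x hxE)
  have hk1 : k.1 = 1 := by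
    have : k = P * Q * P⁻¹ * Q⁻¹ := D.inj (by rw [hkd, himg])
    rw [this]; exact commutator_fst P Q
  have hne : k ≠ 1 := fun e => by
    rw [e, map_one] at hkd
    have hx1 : x = 1 := by
      calc x = d⁻¹ * (d * x * d⁻¹) * d := by group
      _ = 1 := by rw [← hkd]; group
    obtain ⟨n1, n2, n3, n4, n5, n6, n7, n8, n9, m1, m2, m3⟩ := D.vw_facts
    rcases hx with rfl | rfl | rfl
    exacts [m1 hx1, m2 hx1, m3 hx1]
  rw [← hkd]
  rcases v_cases k with h | h | h | h | h | h | h | h | h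
  · exact absurd hk h
  · exact absurd h hne
  · exact absurd (h ▸ hk1) tK_fst
  · exact Or.inl (by rw [h]; rfl)
  · exact Or.inr (Or.inl (by rw [h]; rfl))
  · exact Or.inr (Or.inr (by rw [h, map_mul]; rfl))
  all_goals exact absurd (h ▸ hk1) (by decide +kernel)

/-- An element fixing `t` and normalizing `E` has its cube in `C(E)`, or its square. -/
theorem stab_act {s : G} (hst : s * D.t = D.t * s) (hsE : ∀ a, a ∈ D.E ↔ s * a * s⁻¹ ∈ D.E) :
    (s * D.v * s⁻¹ = D.v ∧ s * D.w * s⁻¹ = D.w) ∨ (s * D.v * s⁻¹ = D.w ∧ s * D.w * s⁻¹ = D.v * D.w) ∨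
      (s * D.v * s⁻¹ = D.v * D.w ∧ s * D.w * s⁻¹ = D.v) := by
  obtain ⟨n1, n2, n3, n4, n5, n6, n7, n8, n9, m1, m2, m3⟩ := D.vw_facts
  obtain ⟨a, ha⟩ := D.εF_surj D.v_mem m1
  obtain ⟨b, hb⟩ := D.εF_surj D.w_mem m2
  have hab : a ≠ b := fun e => n4 (by rw [← ha, ← hb, e])
  have hc : D.εF (third D.j a b) = D.v * D.w := by rw [← D.εF_third hab, ha, hb]
  have h0 : ∀ x : Fin 7, D.εF x ≠ D.t → x ≠ 0 := fun x hx e => hx (by rw [e, D.εF_zero])
  have ha0 : a ≠ 0 := h0 a (by rw [ha]; exact n1)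
  have hb0 : b ≠ 0 := h0 b (by rw [hb]; exact n2)
  have hc0 : third D.j a b ≠ 0 := h0 _ (by rw [hc]; exact n3)
  have hL : ∀ {d : G}, d * D.t = D.t * d → (∀ a ∈ D.E, d * a * d⁻¹ ∈ D.E) → ∀ x : Fin 7,
      (x = a ∨ x = b ∨ x = third D.j a b) →
      ∃ y, (y = a ∨ y = b ∨ y = third D.j a b) ∧ d * D.εF x * d⁻¹ = D.εF y := by
    intro d hd hdE x hx
    have hx' : D.εF x = D.v ∨ D.εF x = D.w ∨ D.εF x = D.v * D.w := by
      rcases hx with rfl | rfl | rfl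
      exacts [Or.inl ha, Or.inr (Or.inl hb), Or.inr (Or.inr hc)]
    rcases D.L_preserved hd hdE hx' with h | h | h
    · exact ⟨a, Or.inl rfl, by rw [h, ha]⟩
    · exact ⟨b, Or.inr (Or.inl rfl), by rw [h, hb]⟩
    · exact ⟨_, Or.inr (Or.inr rfl), by rw [h, hc]⟩
  obtain ⟨pa, hpa, epa⟩ := hL hst (fun x hx => (hsE x).mp hx) a (Or.inl rfl)
  obtain ⟨pb, hpb, epb⟩ := hL hst (fun x hx => (hsE x).mp hx) b (Or.inr (Or.inl rfl))
  have hpp : pa ≠ pb := fun e => hab (D.εF_inj (by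
    have := epa.trans ((congrArg D.εF e).trans epb.symm)
    exact mul_left_cancel (mul_right_cancel this)))
  have hmulc : ∀ x y : G, s * (x * y) * s⁻¹ = (s * x * s⁻¹) * (s * y * s⁻¹) := fun x y => by group
  have ep0 : s * D.εF 0 * s⁻¹ = D.εF 0 := by rw [D.εF_zero, hst, mul_inv_cancel_right]
  have epc : s * D.εF (third D.j a b) * s⁻¹ = D.εF (third D.j pa pb) := by
    rw [← D.εF_third hab, hmulc, epa, epb, D.εF_third hpp]
  have hpa0 : pa ≠ 0 := by rcases hpa with rfl | rfl | rfl <;> assumption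
  have hpb0 : pb ≠ 0 := by rcases hpb with rfl | rfl | rfl <;> assumption
  have ht3 : ∀ {x px : Fin 7}, x ≠ 0 → px ≠ 0 → s * D.εF x * s⁻¹ = D.εF px →
      s * D.εF (third D.j 0 x) * s⁻¹ = D.εF (third D.j 0 px) := by
    intro x px hx hpx he
    rw [← D.εF_third (Ne.symm hx), hmulc, ep0, he, D.εF_third (Ne.symm hpx)]
  have hpc0 : third D.j pa pb ≠ 0 := fun e => hc0 (D.εF_inj (by
    have h : s * D.εF (third D.j a b) * s⁻¹ = s * D.εF 0 * s⁻¹ := by rw [epc, ep0, e]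
    exact mul_left_cancel (mul_right_cancel h)))
  have hall : ∀ x : Fin 7, s * D.εF x * s⁻¹ = D.εF (perm2 D.j a b pa pb x) := by
    intro x
    have hx := (perm2_cases D.j a b x).resolve_left (fun h => h ⟨D.j_spec.1, hab, ha0, hb0, hc0⟩)
    unfold perm2
    split_ifs with e0 e1 e2 e3 e4 e5
    · rw [e0]; exact ep0
    · rw [e1]; exact epa
    · rw [e2]; exact epb
    · rw [e3]; exact epc
    · rw [e4]; exact ht3 ha0 hpa0 epa
    · rw [e5]; exact ht3 hb0 hpb0 epb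
    · obtain rfl : x = third D.j 0 (third D.j a b) := by tauto
      exact ht3 hc0 hpc0 epc
  rcases automizer_rigid D.j a b pa pb with h | h | h | h | ⟨m, x, hx, hbad⟩
  · exact absurd ⟨D.j_spec.1, hab, ha0, hb0, hc0, hpa, hpb, hpp⟩ h
  · rw [h.1] at epa; rw [h.2] at epb; rw [ha] at epa; rw [hb] at epb
    exact Or.inl ⟨epa, epb⟩
  · rw [h.1] at epa; rw [h.2] at epb; rw [ha, hb] at epa; rw [hb, hc] at epb
    exact Or.inr (Or.inl ⟨epa, epb⟩)
  · rw [h.1] at epa; rw [h.2] at epb; rw [ha, hc] at epa; rw [hb, ha] at epb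
    exact Or.inr (Or.inr ⟨epa, epb⟩)
  · exfalso
    set i0 := perm2 D.j a b pa pb m with hi0
    set d := D.σ ^ (-i0).val * s * D.σ ^ m.val * s⁻¹ with hd
    have hof : ∀ i : Fin 7, Fin.ofNat 7 i.val = i := Fin.ofNat_val_eq_self
    have hdact : ∀ y : Fin 7, d * (s * D.εF y * s⁻¹) * d⁻¹ = D.εF (perm2 D.j a b pa pb (m + y) - i0) := by
      intro y
      rw [show d * (s * D.εF y * s⁻¹) * d⁻¹ =
        D.σ ^ (-i0).val * (s * (D.σ ^ m.val * D.εF y * (D.σ ^ m.val)⁻¹) * s⁻¹) * (D.σ ^ (-i0).val)⁻¹ by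
          rw [hd]; group, D.εF_add, hof, add_comm y m, hall, D.εF_add, hof, sub_eq_add_neg]
    have hdt : d * D.t = D.t * d := by
      have h := hdact 0
      rw [ep0, add_zero, ← hi0, sub_self, D.εF_zero] at h
      calc d * D.t = (d * D.t * d⁻¹) * d := by group
      _ = D.t * d := by rw [h]
    have hσpow : ∀ n : ℕ, ∀ y ∈ D.E, D.σ ^ n * y * (D.σ ^ n)⁻¹ ∈ D.E := by
      intro n; induction n with
      | zero => intro y hy; simpa using hy
      | succ n ih =>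
        intro y hy
        rw [show D.σ ^ (n + 1) * y * (D.σ ^ (n + 1))⁻¹ = D.σ * (D.σ ^ n * y * (D.σ ^ n)⁻¹) * D.σ⁻¹ by
          rw [pow_succ']; group]
        exact (D.σ_spec.1 _).mp (ih y hy)
    have hdE : ∀ y ∈ D.E, d * y * d⁻¹ ∈ D.E := by
      intro y hy
      have h1 : s⁻¹ * y * s ∈ D.E := (hsE _).mpr (by rwa [show s * (s⁻¹ * y * s) * s⁻¹ = y by group])
      have h2 := hσpow (-i0).val _ ((hsE _).mp (hσpow m.val _ h1))
      rwa [show D.σ ^ (-i0).val * (s * (D.σ ^ m.val * (s⁻¹ * y * s) * (D.σ ^ m.val)⁻¹) * s⁻¹) *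
        (D.σ ^ (-i0).val)⁻¹ = d * y * d⁻¹ by rw [hd]; group] at h2
    obtain ⟨y, hy, hye⟩ := hL hst (fun x hx => (hsE x).mp hx) x hx
    obtain ⟨z, hz, hze⟩ := hL hdt hdE y hy
    have := hdact x
    rw [hye, hze] at this
    exact hbad (D.εF_inj this ▸ hz)

/-- the centralizer of the weak closure -/
def K : Subgroup G := centralizer (D.W : Set G)

theorem cent_E_of {g : G} (ht : g * D.t = D.t * g) (hv : g * D.v = D.v * g) (hw : g * D.w = D.w * g) :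
    g ∈ centralizer (D.E : Set G) := by
  have : D.E ≤ centralizer ({g} : Set G) := D.E_le_of (mem_centralizer_singleton_iff.mpr ht.symm)
    (mem_centralizer_singleton_iff.mpr hv.symm) (mem_centralizer_singleton_iff.mpr hw.symm)
  exact mem_centralizer_iff.mpr fun y hy => (mem_centralizer_singleton_iff.mp (this hy))

theorem act_pow {s : G} (hst : s * D.t = D.t * s) (hsE : ∀ a, a ∈ D.E ↔ s * a * s⁻¹ ∈ D.E) :
    s ^ 3 ∈ centralizer (D.E : Set G) := by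
  have e3 : ∀ x : G, s ^ 3 * x * (s ^ 3)⁻¹ = s * (s * (s * x * s⁻¹) * s⁻¹) * s⁻¹ := fun x => by simp [pow_succ, mul_assoc]
  have hcomm : ∀ {x : G}, s ^ 3 * x * (s ^ 3)⁻¹ = x → s ^ 3 * x = x * s ^ 3 := fun {x} h => by
    calc s ^ 3 * x = (s ^ 3 * x * (s ^ 3)⁻¹) * s ^ 3 := by group
    _ = x * s ^ 3 := by rw [h]
  have hm : ∀ x y : G, s * (x * y) * s⁻¹ = (s * x * s⁻¹) * (s * y * s⁻¹) := fun x y => by group
  have vv := D.E_sq D.v_mem
  have ww := D.E_sq D.w_mem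
  have vw := D.E_comm D.v_mem D.w_mem
  have hw1 : D.w * (D.v * D.w) = D.v := by rw [vw, ← mul_assoc, ww, one_mul]
  have hv1 : D.v * D.w * D.v = D.w := by rw [vw, mul_assoc, vv, mul_one]
  refine D.cent_E_of (hcomm (by rw [e3]; simp [hst])) ?_ ?_ <;> refine hcomm ?_ <;> rw [e3] <;>
    rcases D.stab_act hst hsE with ⟨a, b⟩ | ⟨a, b⟩ | ⟨a, b⟩
  · rw [a, a, a]
  · rw [a, b, hm D.v D.w, a, b, hw1]
  · rw [a, hm D.v D.w, a, b, hv1, b]
  · rw [b, b, b]
  · rw [b, hm D.v D.w, a, b, hw1, a]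
  · rw [b, a, hm D.v D.w, a, b, hv1]

theorem S_cent : (D.S : Subgroup G) ≤ centralizer (D.E : Set G) := by
  intro s hs
  have h3 := D.act_pow (D.tc s hs) (fun a => ⟨fun ha => D.S_le_normalizer hs ha, fun ha => by
    simpa [mul_assoc] using D.S_le_normalizer (inv_mem hs) ha⟩)
  obtain ⟨k, hk⟩ := D.S.2 ⟨s, hs⟩
  have hk' : s ^ (2 ^ k) = 1 := by simpa using congrArg (fun z : ↥(D.S : Subgroup G) => (z : G)) hk
  have hcop : Nat.Coprime 3 (2 ^ k) := Nat.Coprime.pow_right k (by norm_num)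
  have hbez := Nat.gcd_eq_gcd_ab 3 (2 ^ k)
  rw [hcop.gcd_eq_one] at hbez
  rw [← zpow_one s, show (1 : ℤ) = ((1 : ℕ) : ℤ) from rfl, hbez, zpow_add, zpow_mul, zpow_mul,
    zpow_natCast, zpow_natCast, hk', one_zpow, mul_one]
  exact zpow_mem h3 _

theorem cent_E_le : centralizer (D.E : Set G) ≤ centralizer ({D.t} : Set G) := fun c hc =>
  mem_centralizer_singleton_iff.mpr ((mem_centralizer_iff.mp hc D.t D.t_mem).symm)

theorem t_mem_K : D.t ∈ D.K := mem_centralizer_iff.mpr fun _ hy => D.W_comm_t hy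

theorem E_inf_K {x : G} (hE : x ∈ D.E) (hK : x ∈ D.K) : x = 1 ∨ x = D.t := by
  obtain ⟨k, -, rfl⟩ := D.mem_E.mp hE
  rcases central_eq k (fun l => D.inj (by
      rw [map_mul, map_mul]; exact ((mem_centralizer_iff.mp hK) (D.φ l) ⟨l, rfl⟩).symm)) with h | h
  · exact Or.inl (by rw [h, map_one])
  · exact Or.inr (by rw [h]; rfl)

theorem K_comm {k : G} (hk : k ∈ D.K) {x : G} (hx : x ∈ D.W) : k * x = x * k :=
  ((mem_centralizer_iff.mp hk) x hx).symm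

theorem cent_E_split {c : G} (hc : c ∈ centralizer (D.E : Set G)) : ∃ e ∈ D.E, ∃ k ∈ D.K, c = e * k := by
  have hct := mem_centralizer_singleton_iff.mp (D.cent_E_le hc)
  have hcv : ∀ {x : G}, x ∈ D.E → c * x * c⁻¹ = x := fun {x} hx => by
    rw [← mem_centralizer_iff.mp hc x hx, mul_inv_cancel_right]
  obtain ⟨b, hb⟩ := D.conj_W hct (x := D.φ yK) ⟨yK, rfl⟩
  obtain ⟨o1, o2, o3⟩ := orders
  have hpow : ∀ (x : G) (n : ℕ), (c * x * c⁻¹) ^ n = c * x ^ n * c⁻¹ := fun x n => conj_pow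
  have hconds : b ^ 5 = 1 ∧ (vK * b) ^ 3 = 1 ∧ (wK * b) ^ 5 = 1 := by
    refine ⟨D.inj ?_, D.inj ?_, D.inj ?_⟩
    · rw [map_pow, hb, hpow, ← map_pow, o1, map_one]; group
    · rw [map_pow, map_mul, hb]
      rw [show D.φ vK * (c * D.φ yK * c⁻¹) = c * (D.φ vK * D.φ yK) * c⁻¹ by
        have h := hcv D.v_mem; simp only [v] at h
        conv_lhs => rw [← h]
        group]
      rw [hpow, ← map_mul, ← map_pow, o2, map_one]; group
    · rw [map_pow, map_mul, hb]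
      rw [show D.φ wK * (c * D.φ yK * c⁻¹) = c * (D.φ wK * D.φ yK) * c⁻¹ by
        have h := hcv D.w_mem; simp only [w] at h
        conv_lhs => rw [← h]
        group]
      rw [hpow, ← map_mul, ← map_pow, o3, map_one]; group
  obtain ⟨g, hg, hgy⟩ := (fix_v b).resolve_left (fun h => h hconds)
  have heE : D.φ g ∈ D.E := D.mem_E.mpr ⟨g, hg, rfl⟩
  set k := (D.φ g)⁻¹ * c with hk
  refine ⟨D.φ g, heE, k, ?_, by rw [hk]; group⟩
  have hkE : ∀ {x : G}, x ∈ D.E → k * x = x * k := fun {x} hx => by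
    rw [hk, mul_assoc, ← mem_centralizer_iff.mp hc x hx, ← mul_assoc, ← D.E_comm hx (inv_mem heE), mul_assoc]
  have hky : k * D.φ yK = D.φ yK * k := by
    have h1 : D.φ g * D.φ yK * (D.φ g)⁻¹ = c * D.φ yK * c⁻¹ := by rw [← hb, ← hgy, map_mul, map_mul, map_inv]
    rw [hk]
    calc (D.φ g)⁻¹ * c * D.φ yK = (D.φ g)⁻¹ * (c * D.φ yK * c⁻¹) * c := by group
    _ = D.φ yK * ((D.φ g)⁻¹ * c) := by rw [← h1]; group
  let Kc : Subgroup Cen := (centralizer ({k} : Set G)).comap D.φ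
  have mt : tK ∈ Kc := mem_centralizer_singleton_iff.mpr (hkE D.t_mem).symm
  have mv : vK ∈ Kc := mem_centralizer_singleton_iff.mpr (hkE D.v_mem).symm
  have mw : wK ∈ Kc := mem_centralizer_singleton_iff.mpr (hkE D.w_mem).symm
  have my : yK ∈ Kc := mem_centralizer_singleton_iff.mpr hky.symm
  have mx : xK ∈ Kc := by
    rw [x_word]; exact mul_mem (mul_mem (mul_mem (mul_mem (mul_mem (mul_mem mv my) mv) my) my) my) mv
  refine mem_centralizer_iff.mpr ?_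
  rintro _ ⟨l, rfl⟩
  obtain ⟨a, a2, a3, a4, a5, hl⟩ := factor l
  have hlK : l ∈ Kc := by
    rw [hl]
    exact mul_mem (mul_mem (mul_mem (mul_mem (pow_mem mt _) (pow_mem mv _)) (pow_mem mw _)) (pow_mem mx _))
      (pow_mem my _)
  exact mem_centralizer_singleton_iff.mp hlK

theorem stab_split {n : G} (hnt : n * D.t = D.t * n) (hnE : ∀ a, a ∈ D.E ↔ n * a * n⁻¹ ∈ D.E) :
    ∃ w' ∈ D.W, ∃ k ∈ D.K, n = w' * k := by
  obtain ⟨p1, p2, p3, p4⟩ := D.τ_perm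
  have hτW : D.τ ∈ D.W := ⟨xK, rfl⟩
  have hcentr : ∀ i : ℕ, (D.τ ^ i)⁻¹ * n ∈ centralizer (D.E : Set G) → ∃ w' ∈ D.W, ∃ k ∈ D.K, n = w' * k := by
    intro i hi
    obtain ⟨e, he, k, hk, hek⟩ := D.cent_E_split hi
    exact ⟨D.τ ^ i * e, mul_mem (pow_mem hτW i) (D.E_le_W he), k, hk, by rw [mul_assoc, ← hek]; group⟩
  have hfix : ∀ i : ℕ, (D.τ ^ i)⁻¹ * n * D.t = D.t * ((D.τ ^ i)⁻¹ * n) := fun i => by
    have h2 := D.W_comm_t (inv_mem (pow_mem hτW i))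
    rw [mul_assoc, hnt, ← mul_assoc, h2, mul_assoc]
  have hc : ∀ i : ℕ, n * D.v * n⁻¹ = D.τ ^ i * D.v * (D.τ ^ i)⁻¹ → n * D.w * n⁻¹ = D.τ ^ i * D.w * (D.τ ^ i)⁻¹ →
      (D.τ ^ i)⁻¹ * n ∈ centralizer (D.E : Set G) := by
    intro i h1 h2
    have key : ∀ x : G, n * x * n⁻¹ = D.τ ^ i * x * (D.τ ^ i)⁻¹ →
        (D.τ ^ i)⁻¹ * n * x = x * ((D.τ ^ i)⁻¹ * n) := fun x h => by
      calc (D.τ ^ i)⁻¹ * n * x = (D.τ ^ i)⁻¹ * (n * x * n⁻¹) * n := by group
      _ = x * ((D.τ ^ i)⁻¹ * n) := by rw [h]; group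
    exact D.cent_E_of (hfix i) (key _ h1) (key _ h2)
  rcases D.stab_act hnt hnE with ⟨a, b⟩ | ⟨a, b⟩ | ⟨a, b⟩
  · exact hcentr 0 (hc 0 (by simpa using a) (by simpa using b))
  · refine hcentr 2 (hc 2 ?_ ?_) <;> rw [show D.τ ^ 2 = D.τ * D.τ from pow_two _] <;>
      rw [mul_inv_rev]
    · rw [a, show D.τ * D.τ * D.v * (D.τ⁻¹ * D.τ⁻¹) = D.τ * (D.τ * D.v * D.τ⁻¹) * D.τ⁻¹ by group, p1, p2]
    · rw [b, show D.τ * D.τ * D.w * (D.τ⁻¹ * D.τ⁻¹) = D.τ * (D.τ * D.w * D.τ⁻¹) * D.τ⁻¹ by group, p3, p1]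
  · refine hcentr 1 (hc 1 ?_ ?_) <;> rw [pow_one]
    · rw [a, p1]
    · rw [b, p3]

/-- `C(t) = W C(W)`. -/
theorem cent_t_split {c : G} (hc : c * D.t = D.t * c) : ∃ w' ∈ D.W, ∃ k ∈ D.K, c = w' * k := by
  haveI : Fact (Nat.Prime 2) := ⟨Nat.prime_two⟩
  set Ec := centralizer ({vK} : Set Cen)
  set P := D.E.map (MulAut.conj c).toMonoidHom
  set P' := P.comap D.φ with hP'
  have hPW : P ≤ D.φ.range := by rintro _ ⟨e, he, rfl⟩; exact D.conj_W hc (D.E_le_W he)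
  have hcP : Nat.card P' = 8 := by
    rw [Nat.card_congr (equivMapOfInjective P' D.φ D.inj).toEquiv, hP', map_comap_eq, inf_eq_right.mpr hPW]
    exact (Nat.card_congr (equivMapOfInjective D.E _ (MulAut.conj c).injective).toEquiv).symm.trans D.card_E
  have hcard : ∀ Q : Subgroup Cen, Nat.card Q = 8 → Nat.card Q = 2 ^ (Nat.card Cen).factorization 2 := by
    intro Q hQ
    rw [hQ, Nat.card_eq_fintype_card (α := Cen), show Fintype.card Cen = 120 by decide +kernel,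
      show (120 : ℕ) = 2 ^ 3 * 15 by norm_num,
      Nat.factorization_mul (by norm_num) (by norm_num), Nat.Prime.factorization_pow Nat.prime_two]
    simp [Nat.factorization_eq_zero_of_not_dvd (show ¬ 2 ∣ 15 by norm_num)]
  have hEc : Nat.card Ec = 8 := by
    rw [← card_v, ← Nat.card_eq_fintype_card]
    exact Nat.card_congr (Equiv.subtypeEquivRight fun l => mem_centralizer_singleton_iff)
  obtain ⟨g, hg⟩ := MulAction.exists_smul_eq Cen (Sylow.ofCard P' (hcard _ hcP)) (Sylow.ofCard Ec (hcard _ hEc))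
  set n := D.φ g * c with hn
  have hnt : n * D.t = D.t * n := by
    rw [hn, mul_assoc, hc, ← mul_assoc, D.W_comm_t ⟨g, rfl⟩, mul_assoc]
  have hmem : ∀ a ∈ D.E, n * a * n⁻¹ ∈ D.E := by
    intro a ha
    obtain ⟨l, hl⟩ := D.conj_W hc (D.E_le_W ha)
    have hl' : l ∈ P' := by show D.φ l ∈ P; rw [hl]; exact mem_map_of_mem _ ha
    have hg' : g * l * g⁻¹ ∈ Ec := by
      have h1 : g * l * g⁻¹ ∈ ((g • Sylow.ofCard P' (hcard _ hcP) : Sylow 2 Cen) : Subgroup Cen) := by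
        rw [Sylow.coe_subgroup_smul, mem_pointwise_smul_iff_inv_smul_mem]
        simpa [MulAut.smul_def, mul_assoc] using hl'
      rw [hg] at h1
      exact h1
    refine D.mem_E.mpr ⟨_, mem_centralizer_singleton_iff.mp hg', ?_⟩
    rw [map_mul, map_mul, map_inv, hl, hn]; group
  have hnE : ∀ a, a ∈ D.E ↔ n * a * n⁻¹ ∈ D.E := by
    intro a
    refine ⟨hmem a, fun h => ?_⟩
    have hinj : Function.Surjective (fun b : D.E => (⟨n * b * n⁻¹, hmem b b.2⟩ : D.E)) :=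
      Finite.injective_iff_surjective.mp fun p q hpq =>
        Subtype.ext (mul_left_cancel (mul_right_cancel (congrArg Subtype.val hpq)))
    obtain ⟨b, hb⟩ := hinj ⟨_, h⟩
    have hb' : (b : G) = a := mul_left_cancel (mul_right_cancel (congrArg Subtype.val hb))
    exact hb' ▸ b.2
  obtain ⟨w', hw', k, hk, he⟩ := D.stab_split hnt hnE
  refine ⟨(D.φ g)⁻¹ * w', mul_mem (inv_mem ⟨g, rfl⟩) hw', k, hk, ?_⟩
  rw [mul_assoc, ← he, hn, inv_mul_cancel_left]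

end Sys

end CfsgLib.WeakJ1
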