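import Cfsg.Agent.JankoOrder.Model

/-!
Facts about `2 × A₅`, verified by evaluation.
-/

set_option autoImplicit false

namespace CfsgLib.WeakJ1

open CfsgLib.JankoOrder
set_option synthInstance.maxSize 20000
set_option synthInstance.maxHeartbeats 200000

/-- a second involution commuting with `vK` -/
def wK : Cen :=
  (1, ⟨Equiv.swap 0 2 * Equiv.swap 1 3, Equiv.Perm.mem_alternatingGroup.mpr (by decide +kernel)⟩)

theorem card_v : Fintype.card {k : Cen // k * vK = vK * k} = 8 := by decide +kernel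

theorem v_sq : ∀ k : Cen, ¬ (k * vK = vK * k) ∨ k * k = 1 := by decide +kernel

theorem v_cases : ∀ k : Cen, ¬ (k * vK = vK * k) ∨ k = 1 ∨ k = tK ∨ k = vK ∨ k = wK ∨ k = vK * wK ∨
    k = tK * vK ∨ k = tK * wK ∨ k = tK * (vK * wK) := by decide +kernel

theorem v_elems : vK * wK = wK * vK ∧ tK * vK = vK * tK ∧ wK * wK = 1 ∧ wK ≠ 1 ∧ wK ≠ vK ∧ wK.1 = 1 := by
  decide +kernel

theorem x_perm : xK * vK * xK⁻¹ = vK * wK ∧ xK * (vK * wK) * xK⁻¹ = wK ∧ xK * wK * xK⁻¹ = vK ∧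
    xK * tK * xK⁻¹ = tK := by decide +kernel

theorem commutator_fst (p q : Cen) : (p * q * p⁻¹ * q⁻¹).1 = 1 := by
  simp only [Prod.fst_mul, Prod.fst_inv]
  rw [mul_comm p.1 q.1, mul_inv_cancel_right, mul_inv_cancel]

theorem commutators : (∃ p q : Cen, p * q * p⁻¹ * q⁻¹ = vK) ∧ (∃ p q : Cen, p * q * p⁻¹ * q⁻¹ = wK) ∧
    (∃ p q : Cen, p * q * p⁻¹ * q⁻¹ = vK * wK) :=
  ⟨⟨xK, vK * wK, by decide +kernel⟩, ⟨xK, vK, by decide +kernel⟩, ⟨xK, wK, by decide +kernel⟩⟩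

theorem x_word : xK = vK * yK * vK * yK * yK * yK * vK := by decide +kernel

theorem factor : ∀ k : Cen, ∃ a : Fin 2, ∃ b : Fin 2, ∃ c : Fin 2, ∃ d : Fin 3, ∃ i : Fin 5,
    k = tK ^ (a : ℕ) * vK ^ (b : ℕ) * wK ^ (c : ℕ) * xK ^ (d : ℕ) * yK ^ (i : ℕ) := by decide +kernel

theorem fix_v : ∀ b : Cen, ¬ (b ^ 5 = 1 ∧ (vK * b) ^ 3 = 1 ∧ (wK * b) ^ 5 = 1) ∨
    ∃ g : Cen, g * vK = vK * g ∧ g * yK * g⁻¹ = b := by decide +kernel

theorem orders : yK ^ 5 = 1 ∧ (vK * yK) ^ 3 = 1 ∧ (wK * yK) ^ 5 = 1 := by decide +kernel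

/-- An element of odd order generating with its `⟨v, w⟩`-conjugates a group of odd order is trivial. -/
theorem odd_invariant : ∀ k : Cen, ¬ (k ^ 15 = 1 ∧
    (k * (wK * k⁻¹ * wK) * k * (vK * wK * k⁻¹ * (vK * wK))) ^ 15 = 1 ∧
    (k * (vK * k⁻¹ * vK) * k * (wK * k⁻¹ * wK)) ^ 15 = 1 ∧
    (k * (vK * k⁻¹ * vK) * k * (vK * wK * k⁻¹ * (vK * wK))) ^ 15 = 1) ∨ k = 1 := by decide +kernel

theorem odd_exp : ∀ k : Cen, k ^ 30 = 1 := by decide +kernel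

theorem even_part : ∀ k : Cen, k ^ 15 = 1 ∨ (k ^ 15 * k ^ 15 = 1 ∧ k ^ 15 ≠ 1) := by decide +kernel

theorem inv_conj : ∀ k : Cen, ¬ (k * k = 1) ∨ ∃ g : Cen, (g * k * g⁻¹) * vK = vK * (g * k * g⁻¹) := by
  decide +kernel

end CfsgLib.WeakJ1
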