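import Mathlib.GroupTheory.Sylow
import Cfsg.Agent.WeakClosureJ1.Model

/-!
An involution whose weak closure in its centralizer is `2 × A₅`: the setting, and the elementary
abelian subgroup of order eight.
-/

set_option autoImplicit false
set_option linter.unusedSectionVars false
set_option linter.style.haveILetI false

namespace CfsgLib.WeakJ1

open Subgroup CfsgLib.JankoOrder
open scoped Pointwise

universe u

/-- The setting: `φ` embeds `2 × A₅` with image the weak closure of `φ tK` in its centralizer. -/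
structure Sys (G : Type u) [Group G] where
  /-- a Sylow subgroup -/
  S : Sylow 2 G
  /-- the embedding -/
  φ : Cen →* G
  inj : Function.Injective φ
  range_eq : φ.range = closure {x | ∃ g : G, x = g * φ tK * g⁻¹ ∧ x * φ tK = φ tK * x}
  tc : ∀ s ∈ S, s * φ tK = φ tK * s
  vS : ∀ k, k * vK = vK * k → φ k ∈ S

variable {G : Type u} [Group G] [Finite G]

theorem exists_sys (t : G) (ht : orderOf t = 2) (S : Sylow 2 G)
    (htc : ∀ s ∈ S, s * t = t * s)
    (e : ↥(closure {x : G | ∃ g : G, x = g * t * g⁻¹ ∧ x * t = t * x}) ≃* Cen) :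
    ∃ D : Sys G, D.φ tK = t := by
  haveI : Fact (Nat.Prime 2) := ⟨Nat.prime_two⟩
  set W := closure {x : G | ∃ g : G, x = g * t * g⁻¹ ∧ x * t = t * x} with hW
  have t2 : t * t = 1 := by rw [← pow_two, ← ht]; exact pow_orderOf_eq_one t
  have t1 : t ≠ 1 := fun h => by rw [h, orderOf_one] at ht; omega
  have htW : t ∈ W := subset_closure ⟨1, by simp, rfl⟩
  have hWc : W ≤ centralizer ({t} : Set G) := (closure_le _).mpr fun x hx =>
    mem_centralizer_singleton_iff.mpr hx.choose_spec.2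
  have hfix : e ⟨t, htW⟩ = tK := by
    have hcen : ∀ l : Cen, e ⟨t, htW⟩ * l = l * e ⟨t, htW⟩ := fun l => by
      obtain ⟨w, rfl⟩ := e.surjective l
      rw [← map_mul, ← map_mul]
      exact congrArg e (Subtype.ext (mem_centralizer_singleton_iff.mp (hWc w.2)).symm)
    rcases central_eq _ hcen with h | h
    · rw [MulEquiv.map_eq_one_iff] at h
      exact absurd (congrArg Subtype.val h) t1
    · exact h
  set φ0 : Cen →* G := W.subtype.comp e.symm.toMonoidHom with hφ0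
  have hinj : Function.Injective φ0 := W.subtype_injective.comp e.symm.injective
  have h0 : φ0 tK = t := by
    show ((e.symm tK : W) : G) = t
    rw [← hfix, MulEquiv.symm_apply_apply]
  have hran : φ0.range = W := by
    ext x
    constructor
    · rintro ⟨k, rfl⟩; exact (e.symm k).2
    · intro hx; exact ⟨e ⟨x, hx⟩, by show ((e.symm _ : W) : G) = x; rw [MulEquiv.symm_apply_apply]⟩
  set C := centralizer ({t} : Set G) with hC
  set P := (centralizer ({vK} : Set Cen)).map φ0 with hP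
  have hPC : P ≤ C := by
    rintro _ ⟨k, -, rfl⟩; exact hWc (e.symm k).2
  have hP2 : IsPGroup 2 P := by
    refine IsPGroup.map ?_ φ0
    intro k
    refine ⟨1, Subtype.ext ?_⟩
    rcases v_sq k.1 with h | h
    · exact absurd (mem_centralizer_singleton_iff.mp k.2) h
    · simpa [pow_two] using h
  have hSC : (S : Subgroup G) ≤ C := fun s hs => mem_centralizer_singleton_iff.mpr (htc s hs)
  obtain ⟨T, hT⟩ := (IsPGroup.comap_of_injective hP2 C.subtype C.subtype_injective).exists_le_sylow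
  obtain ⟨c, hc⟩ := MulAction.exists_smul_eq C (S.subtype hSC) T
  have hconj : ∀ p ∈ P, (c : G)⁻¹ * p * c ∈ (S : Subgroup G) := by
    intro p hp
    have h1 : (⟨p, hPC hp⟩ : C) ∈ T := hT hp
    rw [← hc] at h1
    have h2 : (⟨p, hPC hp⟩ : C) ∈ ((MulAut.conj c • (S.subtype hSC : Subgroup C) : Subgroup C)) := by
      rw [← Sylow.coe_subgroup_smul]; exact h1
    rw [mem_pointwise_smul_iff_inv_smul_mem] at h2
    simpa [MulAut.smul_def, Subgroup.mem_subgroupOf, mul_assoc] using h2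
  have hct : (c : G)⁻¹ * t * c = t := by
    rw [mul_assoc, ← mem_centralizer_singleton_iff.mp c.2]; group
  have hWn : ∀ d : G, d * t = t * d → ∀ x ∈ W, d * x * d⁻¹ ∈ W := by
    intro d hd x hx
    induction hx using closure_induction with
    | mem y hy =>
      obtain ⟨g, rfl, hg⟩ := hy
      refine subset_closure ⟨d * g, by group, ?_⟩
      calc d * (g * t * g⁻¹) * d⁻¹ * t = d * (g * t * g⁻¹) * (d⁻¹ * t * d) * d⁻¹ := by group
      _ = d * ((g * t * g⁻¹) * t) * d⁻¹ := by rw [mul_assoc d⁻¹, ← hd]; group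
      _ = (d * t) * (g * t * g⁻¹) * d⁻¹ := by rw [hg]; group
      _ = t * (d * (g * t * g⁻¹) * d⁻¹) := by rw [hd]; group
    | one => simp
    | mul x y _ _ hx hy =>
      rw [show d * (x * y) * d⁻¹ = d * x * d⁻¹ * (d * y * d⁻¹) by group]; exact mul_mem hx hy
    | inv x _ hx => rw [show d * x⁻¹ * d⁻¹ = (d * x * d⁻¹)⁻¹ by group]; exact inv_mem hx
  set φ : Cen →* G := (MulAut.conj ((c : G)⁻¹)).toMonoidHom.comp φ0 with hφ
  have hval : ∀ k, φ k = (c : G)⁻¹ * φ0 k * c := fun k => by simp [hφ]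
  have hφt : φ tK = t := by rw [hval, h0, hct]
  refine ⟨⟨S, φ, ?_, ?_, by rw [hφt]; exact htc, fun k hk => ?_⟩, hφt⟩
  · exact (MulAut.conj ((c : G)⁻¹)).injective.comp hinj
  · rw [hφt, ← hW]
    ext x
    constructor
    · rintro ⟨k, rfl⟩
      rw [hval]
      have := hWn ((c : G)⁻¹) (by
        have := mem_centralizer_singleton_iff.mp c.2
        calc (c : G)⁻¹ * t = (c : G)⁻¹ * (t * c) * (c : G)⁻¹ := by group
        _ = t * (c : G)⁻¹ := by rw [← this]; group) _ (e.symm k).2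
      simpa [hφ0] using this
    · intro hx
      have h1 := hWn c (mem_centralizer_singleton_iff.mp c.2) x hx
      rw [← hran] at h1
      obtain ⟨k, hk⟩ := h1
      exact ⟨k, by rw [hval, hk]; group⟩
  · rw [hval]
    exact hconj _ (mem_map_of_mem _ (mem_centralizer_singleton_iff.mpr hk))

namespace Sys

variable (D : Sys G)

/-- the involution -/
def t : G := D.φ tK

/-- the class of `t` -/
def X : Set G := {x | ∃ g : G, x = g * D.t * g⁻¹}

/-- the weak closure -/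
def W : Subgroup G := D.φ.range

/-- the elementary abelian subgroup of order eight -/
def E : Subgroup G := (centralizer ({vK} : Set Cen)).map D.φ

/-- the first involution of the simple factor in `E` -/
def v : G := D.φ vK

/-- the second involution of the simple factor in `E` -/
def w : G := D.φ wK

/-- the element of order three -/
def τ : G := D.φ xK

theorem t_mem_X : D.t ∈ D.X := ⟨1, by simp⟩

theorem conj_X {x : G} (hx : x ∈ D.X) (g : G) : g * x * g⁻¹ ∈ D.X := by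
  obtain ⟨h, rfl⟩ := hx; exact ⟨g * h, by group⟩

theorem t_sq : D.t * D.t = 1 := by rw [t, ← map_mul, tK_sq, map_one]

theorem t_ne : D.t ≠ 1 := fun h => tK_ne (D.inj (by rw [map_one]; exact h))

theorem X_sq {x : G} (hx : x ∈ D.X) : x * x = 1 := by
  obtain ⟨g, rfl⟩ := hx
  rw [show g * D.t * g⁻¹ * (g * D.t * g⁻¹) = g * (D.t * D.t) * g⁻¹ by group, D.t_sq, mul_one,
    mul_inv_cancel]

theorem X_ne {x : G} (hx : x ∈ D.X) : x ≠ 1 := by
  obtain ⟨g, rfl⟩ := hx
  intro h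
  exact D.t_ne (by
    calc D.t = g⁻¹ * (g * D.t * g⁻¹) * g := by group
    _ = 1 := by rw [h]; group)

theorem X_inv {x : G} (hx : x ∈ D.X) : x⁻¹ = x := inv_eq_of_mul_eq_one_right (D.X_sq hx)

theorem mem_W {x : G} (hx : x ∈ D.X) (hc : x * D.t = D.t * x) : x ∈ D.W := by
  obtain ⟨g, rfl⟩ := hx
  rw [W, D.range_eq]
  exact subset_closure ⟨g, rfl, hc⟩

theorem W_induction {K : Subgroup G} (h : ∀ x ∈ D.X, x * D.t = D.t * x → x ∈ K) : D.W ≤ K := by
  rw [W, D.range_eq, closure_le]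
  rintro x ⟨g, rfl, hc⟩
  exact h _ ⟨g, rfl⟩ hc

theorem t_mem_W : D.t ∈ D.W := ⟨tK, rfl⟩

theorem tK_comm (k : Cen) : k * tK = tK * k := by
  have hz : ∀ a : Multiplicative (ZMod 2), a * tK.1 = tK.1 * a := fun a => mul_comm _ _
  exact Prod.ext (hz _) (by simp [tK])

theorem W_comm_t {x : G} (hx : x ∈ D.W) : x * D.t = D.t * x := by
  obtain ⟨k, rfl⟩ := hx
  rw [t, ← map_mul, ← map_mul, tK_comm]

theorem conj_W {c : G} (hc : c * D.t = D.t * c) {x : G} (hx : x ∈ D.W) : c * x * c⁻¹ ∈ D.W := by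
  have hle : D.W ≤ D.W.comap (MulAut.conj c).toMonoidHom := by
    refine D.W_induction fun y hy hyc => ?_
    show c * y * c⁻¹ ∈ D.W
    refine D.mem_W (D.conj_X hy c) ?_
    calc c * y * c⁻¹ * D.t = c * y * c⁻¹ * (c * D.t * c⁻¹) := by rw [hc]; group
    _ = c * (y * D.t) * c⁻¹ := by group
    _ = (c * D.t * c⁻¹) * (c * y * c⁻¹) := by rw [hyc]; group
    _ = D.t * (c * y * c⁻¹) := by rw [hc]; group
  exact hle hx

theorem mem_E {x : G} : x ∈ D.E ↔ ∃ k, k * vK = vK * k ∧ D.φ k = x := by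
  simp only [E, Subgroup.mem_map, mem_centralizer_singleton_iff]

theorem E_le_W : D.E ≤ D.W := by rintro _ ⟨k, -, rfl⟩; exact ⟨k, rfl⟩

theorem E_le_S : D.E ≤ (D.S : Subgroup G) := fun x hx => by
  obtain ⟨k, hk, rfl⟩ := D.mem_E.mp hx; exact D.vS k hk

theorem inter_le_E {x : G} (hS : x ∈ D.S) (hW : x ∈ D.W) : x ∈ D.E := by
  haveI : Fact (Nat.Prime 2) := ⟨Nat.prime_two⟩
  obtain ⟨k, rfl⟩ := hW
  set P := (D.S : Subgroup G).comap D.φ with hP
  have hle : centralizer ({vK} : Set Cen) ≤ P := fun l hl => D.vS l (mem_centralizer_singleton_iff.mp hl)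
  obtain ⟨i, hi⟩ := IsPGroup.iff_card.mp (IsPGroup.comap_of_injective D.S.2 D.φ D.inj : IsPGroup 2 P)
  have h8 : Nat.card (centralizer ({vK} : Set Cen)) = 8 := by
    rw [← card_v, ← Nat.card_eq_fintype_card]
    exact Nat.card_congr (Equiv.subtypeEquivRight fun l => mem_centralizer_singleton_iff)
  have h120 : Nat.card P ∣ 120 := by
    have h := P.card_subgroup_dvd_card
    rwa [Nat.card_eq_fintype_card (α := Cen), show Fintype.card Cen = 120 by decide +kernel] at h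
  have hi3 : i ≤ 3 := by
    by_contra h
    rw [hi] at h120
    have h16 : (16 : ℕ) ∣ 120 := (pow_dvd_pow 2 (show 4 ≤ i by omega)).trans h120
    norm_num at h16
  have he : centralizer ({vK} : Set Cen) = P := by
    refine Subgroup.eq_of_le_of_card_ge hle ?_
    rw [h8, hi]; exact Nat.pow_le_pow_right (by norm_num) hi3
  exact mem_map_of_mem _ (he ▸ (show k ∈ P from hS))

theorem X_S {x : G} (hx : x ∈ D.X) (hS : x ∈ D.S) : x ∈ D.E := D.inter_le_E hS (D.mem_W hx (D.tc x hS))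

theorem E_sq {x : G} (hx : x ∈ D.E) : x * x = 1 := by
  obtain ⟨k, hk, rfl⟩ := D.mem_E.mp hx
  rw [← map_mul]
  rcases v_sq k with h | h
  · exact absurd hk h
  · rw [h, map_one]

theorem E_comm {x y : G} (hx : x ∈ D.E) (hy : y ∈ D.E) : x * y = y * x := by
  have h := D.E_sq (mul_mem hx hy)
  calc x * y = (x * y)⁻¹ := eq_inv_of_mul_eq_one_left h
  _ = y * x := by
    rw [mul_inv_rev, inv_eq_of_mul_eq_one_right (D.E_sq hx), inv_eq_of_mul_eq_one_right (D.E_sq hy)]

theorem t_mem : D.t ∈ D.E := D.mem_E.mpr ⟨tK, by rw [← tK_comm], rfl⟩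

theorem v_mem : D.v ∈ D.E := D.mem_E.mpr ⟨vK, rfl, rfl⟩

theorem w_mem : D.w ∈ D.E := D.mem_E.mpr ⟨wK, v_elems.1.symm, rfl⟩

theorem E_cases {x : G} (hx : x ∈ D.E) (h1 : x ≠ 1) :
    x = D.t ∨ x = D.v ∨ x = D.w ∨ x = D.v * D.w ∨ x = D.t * D.v ∨ x = D.t * D.w ∨ x = D.t * (D.v * D.w) := by
  obtain ⟨k, hk, rfl⟩ := D.mem_E.mp hx
  rcases v_cases k with h | h | h | h | h | h | h | h | h
  · exact absurd hk h
  · exact absurd (by rw [h, map_one]) h1
  all_goals subst h; simp [t, v, w, map_mul]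

theorem E_le_of {K : Subgroup G} (ht : D.t ∈ K) (hv : D.v ∈ K) (hw : D.w ∈ K) : D.E ≤ K := by
  intro x hx
  rcases eq_or_ne x 1 with rfl | h1
  · exact one_mem _
  · rcases D.E_cases hx h1 with rfl | rfl | rfl | rfl | rfl | rfl | rfl
    exacts [ht, hv, hw, mul_mem hv hw, mul_mem ht hv, mul_mem ht hw, mul_mem ht (mul_mem hv hw)]

theorem τ_perm : D.τ * D.v * D.τ⁻¹ = D.v * D.w ∧ D.τ * (D.v * D.w) * D.τ⁻¹ = D.w ∧
    D.τ * D.w * D.τ⁻¹ = D.v ∧ D.τ * D.t * D.τ⁻¹ = D.t := by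
  obtain ⟨a, b, c, d⟩ := x_perm
  refine ⟨?_, ?_, ?_, ?_⟩ <;> simp only [τ, v, w, t, ← map_mul, ← map_inv] <;> congr 1

theorem S_le_normalizer {s : G} (hs : s ∈ D.S) {x : G} (hx : x ∈ D.E) : s * x * s⁻¹ ∈ D.E :=
  D.inter_le_E (mul_mem (mul_mem hs (D.E_le_S hx)) (inv_mem hs))
    (D.conj_W (D.tc s hs) (D.E_le_W hx))

theorem exists_other : ∃ x ∈ D.X, x ∈ D.E ∧ x ≠ D.t := by
  by_contra hcon
  push Not at hcon
  have hle : D.W ≤ zpowers D.t := by
    refine D.W_induction fun x hx hc => ?_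
    obtain ⟨k, hk⟩ := D.mem_W hx hc
    have hk2 : k * k = 1 := D.inj (by rw [map_mul, map_one, hk, D.X_sq hx])
    rcases inv_conj k with h | ⟨g, hg⟩
    · exact absurd hk2 h
    have h1 : D.φ g * x * (D.φ g)⁻¹ ∈ D.E :=
      D.mem_E.mpr ⟨g * k * g⁻¹, hg, by rw [map_mul, map_mul, map_inv, hk]⟩
    have h2 := hcon _ (D.conj_X hx _) h1
    have h3 : D.φ g * D.t = D.t * D.φ g := D.W_comm_t ⟨g, rfl⟩
    rw [show x = (D.φ g)⁻¹ * (D.φ g * x * (D.φ g)⁻¹) * D.φ g by group, h2, mul_assoc, ← h3]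
    simp
  obtain ⟨n, hn⟩ := mem_zpowers_iff.mp (hle (D.E_le_W D.v_mem))
  have : (vK : Cen) = tK ^ n := D.inj (by rw [map_zpow]; exact hn.symm)
  rcases Int.even_or_odd n with ⟨k, rfl⟩ | ⟨k, rfl⟩
  · rw [zpow_add, ← (Commute.refl tK).mul_zpow, tK_sq, one_zpow] at this
    exact vK_facts.2.1 this
  · rw [zpow_add_one, zpow_mul, zpow_ofNat, pow_two, tK_sq, one_zpow, one_mul] at this
    exact tK_fst (this ▸ vK_facts.2.2.1)

theorem E_le_of_X {K : Subgroup G} (h : ∀ x ∈ D.X, x ∈ D.E → x ∈ K) (hτ : ∀ x ∈ K, x ∈ D.E → D.τ * x * D.τ⁻¹ ∈ K) :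
    D.E ≤ K := by
  obtain ⟨x, hx, hxE, hxt⟩ := D.exists_other
  have ht := h _ D.t_mem_X D.t_mem
  have hx' := h x hx hxE
  obtain ⟨p1, p2, p3, p4⟩ := D.τ_perm
  have key : ∀ a ∈ D.E, a ∈ K → D.t * a ∈ K := fun a _ ha => mul_mem ht ha
  have tt : ∀ a : G, D.t * (D.t * a) = a := fun a => by rw [← mul_assoc, D.t_sq, one_mul]
  have hcase : D.v ∈ K ∨ D.w ∈ K ∨ D.v * D.w ∈ K := by
    rcases D.E_cases hxE (D.X_ne hx) with e | e | e | e | e | e | e
    · exact absurd e hxt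
    · exact Or.inl (e ▸ hx')
    · exact Or.inr (Or.inl (e ▸ hx'))
    · exact Or.inr (Or.inr (e ▸ hx'))
    · exact Or.inl (tt D.v ▸ mul_mem ht (e ▸ hx'))
    · exact Or.inr (Or.inl (tt D.w ▸ mul_mem ht (e ▸ hx')))
    · exact Or.inr (Or.inr (tt (D.v * D.w) ▸ mul_mem ht (e ▸ hx')))
  have hvw := mul_mem D.v_mem D.w_mem
  rcases hcase with h1 | h1 | h1
  · have h2 := p1 ▸ hτ _ h1 D.v_mem
    exact D.E_le_of ht h1 (p2 ▸ hτ _ h2 hvw)
  · have h2 := p3 ▸ hτ _ h1 D.w_mem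
    exact D.E_le_of ht h2 h1
  · have h2 := p2 ▸ hτ _ h1 hvw
    exact D.E_le_of ht (p3 ▸ hτ _ h2 D.w_mem) h2

theorem conj_E_of_fix {x : G} (hx : x ∈ D.X) (hxE : x ∈ D.E) :
    ∃ n : G, n * D.t * n⁻¹ = x ∧ ∀ a, a ∈ D.E ↔ n * a * n⁻¹ ∈ D.E := by
  haveI : Fact (Nat.Prime 2) := ⟨Nat.prime_two⟩
  obtain ⟨g, hg⟩ := hx
  set C := centralizer ({x} : Set G) with hC
  have hT : ((g • D.S : Sylow 2 G) : Subgroup G) ≤ C := by
    intro y hy
    rw [Sylow.coe_subgroup_smul, mem_pointwise_smul_iff_inv_smul_mem] at hy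
    have hy' : g⁻¹ * y * g ∈ (D.S : Subgroup G) := by simpa [MulAut.smul_def] using hy
    rw [mem_centralizer_singleton_iff, hg]
    calc y * (g * D.t * g⁻¹) = g * ((g⁻¹ * y * g) * D.t) * g⁻¹ := by group
    _ = g * (D.t * (g⁻¹ * y * g)) * g⁻¹ := by rw [show (g⁻¹ * y * g) * D.t = D.t * (g⁻¹ * y * g) from D.tc _ hy']
    _ = g * D.t * g⁻¹ * y := by group
  have hEC : D.E ≤ C := fun a ha => mem_centralizer_singleton_iff.mpr (D.E_comm ha hxE)
  have hE2 : IsPGroup 2 D.E := D.S.2.to_le D.E_le_S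
  obtain ⟨T, hT'⟩ := (IsPGroup.comap_of_injective hE2 C.subtype C.subtype_injective).exists_le_sylow
  obtain ⟨c, hc⟩ := MulAction.exists_smul_eq C ((g • D.S).subtype hT) T
  set n := (c : G) * g with hn
  have hnt : n * D.t * n⁻¹ = x := by
    rw [hn, show (c : G) * g * D.t * ((c : G) * g)⁻¹ = (c : G) * (g * D.t * g⁻¹) * (c : G)⁻¹ by group, ← hg,
      mem_centralizer_singleton_iff.mp c.2, mul_inv_cancel_right]
  have hinS : ∀ a ∈ D.E, n⁻¹ * a * n ∈ (D.S : Subgroup G) := by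
    intro a ha
    have h1 : (⟨a, hEC ha⟩ : C) ∈ T := hT' ha
    rw [← hc] at h1
    have h2 : (⟨a, hEC ha⟩ : C) ∈
        (MulAut.conj c • ((g • D.S).subtype hT : Subgroup C) : Subgroup C) := by
      rw [← Sylow.coe_subgroup_smul]; exact h1
    rw [mem_pointwise_smul_iff_inv_smul_mem] at h2
    have h3 : (c : G)⁻¹ * a * c ∈ ((g • D.S : Sylow 2 G) : Subgroup G) := by
      simpa [MulAut.smul_def, Subgroup.mem_subgroupOf, mul_assoc] using h2
    rw [Sylow.coe_subgroup_smul, mem_pointwise_smul_iff_inv_smul_mem] at h3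
    simpa [MulAut.smul_def, hn, mul_assoc] using h3
  set K := D.E.comap (MulAut.conj n).toMonoidHom with hK
  let f : {a : G // a ∈ D.X ∧ a ∈ D.E} → {a : G // a ∈ D.X ∧ a ∈ D.E} := fun a =>
    ⟨n⁻¹ * a.1 * n, by simpa using D.conj_X a.2.1 n⁻¹,
      D.X_S (by simpa using D.conj_X a.2.1 n⁻¹) (hinS _ a.2.2)⟩
  have hfs : Function.Surjective f := Finite.injective_iff_surjective.mp fun a b h => Subtype.ext (by
    have h' : n⁻¹ * a.1 * n = n⁻¹ * b.1 * n := congrArg Subtype.val h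
    simpa using h')
  have hX : ∀ a ∈ D.X, a ∈ D.E → a ∈ K := by
    intro a ha haE
    obtain ⟨b, hb⟩ := hfs ⟨a, ha, haE⟩
    show n * a * n⁻¹ ∈ D.E
    have hb' : n⁻¹ * b.1 * n = a := congrArg Subtype.val hb
    rw [← hb', show n * (n⁻¹ * b.1 * n) * n⁻¹ = b.1 by group]
    exact b.2.2
  have hgen : D.E ≤ Subgroup.closure {a | a ∈ D.X ∧ a ∈ D.E} := by
    refine D.E_le_of_X (fun a ha haE => subset_closure ⟨ha, haE⟩) fun a ha _ => ?_
    have hle : closure {a | a ∈ D.X ∧ a ∈ D.E} ≤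
        (closure {a | a ∈ D.X ∧ a ∈ D.E}).comap (MulAut.conj D.τ).toMonoidHom := by
      refine (closure_le _).mpr fun b hb => ?_
      refine subset_closure ⟨D.conj_X hb.1 _, ?_⟩
      show D.τ * b * D.τ⁻¹ ∈ D.E
      obtain ⟨p1, p2, p3, p4⟩ := D.τ_perm
      have hKle : D.E ≤ D.E.comap (MulAut.conj D.τ).toMonoidHom := by
        refine D.E_le_of ?_ ?_ ?_ <;> show D.τ * _ * D.τ⁻¹ ∈ D.E
        · rw [p4]; exact D.t_mem
        · rw [p1]; exact mul_mem D.v_mem D.w_mem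
        · rw [p3]; exact D.v_mem
      exact hKle hb.2
    exact hle ha
  have hEK : D.E ≤ K := hgen.trans ((closure_le _).mpr fun a ha => hX a ha.1 ha.2)
  refine ⟨n, hnt, fun a => ⟨fun ha => hEK ha, fun ha => ?_⟩⟩
  have h1 : n⁻¹ * (n * a * n⁻¹) * n ∈ Subgroup.closure {a | a ∈ D.X ∧ a ∈ D.E} := by
    have hle : Subgroup.closure {a | a ∈ D.X ∧ a ∈ D.E} ≤
        (Subgroup.closure {a | a ∈ D.X ∧ a ∈ D.E}).comap (MulAut.conj n⁻¹).toMonoidHom := by
      refine (closure_le _).mpr fun b hb => ?_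
      refine subset_closure ?_
      have := (f ⟨b, hb⟩).2
      simpa [f] using this
    simpa [mul_assoc] using hle (hgen ha)
  rw [show n⁻¹ * (n * a * n⁻¹) * n = a by group] at h1
  exact (closure_le _).mpr (fun b hb => hb.2) h1

theorem S_le_stab : (D.S : Subgroup G) ≤ normalizer (D.E : Set G) ⊓ centralizer ({D.t} : Set G) := fun s hs => by
  refine mem_inf.mpr ⟨mem_normalizer_iff.mpr fun a => ⟨fun ha => D.S_le_normalizer hs ha, fun ha => ?_⟩,
    mem_centralizer_singleton_iff.mpr (D.tc s hs)⟩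
  simpa [mul_assoc] using D.S_le_normalizer (inv_mem hs) ha

end Sys

end CfsgLib.WeakJ1
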