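import Mathlib.GroupTheory.Sylow
import Mathlib.GroupTheory.SpecificGroups.ZGroup
import Mathlib.GroupTheory.SpecificGroups.Cyclic
import Mathlib.RingTheory.ZMod.UnitsCyclic
import Mathlib.Data.Nat.Squarefree
import Mathlib.Tactic.NormNum.Prime
import Mathlib.Tactic.IntervalCases

/-!
A simple group of order 175560 has no subgroup of odd order 1463 or more.
-/

set_option autoImplicit false
set_option linter.unusedSectionVars false
set_option linter.style.haveILetI false

namespace CfsgLib.WeakJ1

open Subgroup
open scoped Pointwise commutatorElement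

theorem odd_divisor_facts {n : ℕ} (hd : n ∣ 21945) (hn : 1463 ≤ n) :
    19 ∣ n ∧ n ∈ [1463, 1995, 3135, 4389, 7315, 21945] := by
  obtain ⟨e, he⟩ := hd
  have h1 : 1463 * e ≤ 21945 := he ▸ Nat.mul_le_mul_right e hn
  have h2 : e ≤ 15 := by omega
  simp only [List.mem_cons, List.not_mem_nil, or_false]
  interval_cases e <;> omega

theorem totient_1155 : Nat.totient 1155 = 480 := by
  rw [show (1155 : ℕ) = 3 * 5 * 7 * 11 by norm_num, Nat.totient_mul (by norm_num), Nat.totient_mul (by norm_num),
    Nat.totient_mul (by norm_num), Nat.totient_prime (by norm_num : Nat.Prime 3),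
    Nat.totient_prime (by norm_num : Nat.Prime 5), Nat.totient_prime (by norm_num : Nat.Prime 7),
    Nat.totient_prime (by norm_num : Nat.Prime 11)]

/-- In a group of squarefree order divisible by 19 and dividing 21945, the Sylow 19-subgroup is normal. -/
theorem conj_mem_of_order_nineteen {P : Type*} [Group P] [Finite P] (hd : Nat.card P ∣ 21945) {r : P}
    (hr : orderOf r = 19) (s : P) : s * r * s⁻¹ ∈ zpowers r := by
  haveI : Fact (Nat.Prime 19) := ⟨by norm_num⟩
  have hsq : Squarefree (Nat.card P) := by
    refine Squarefree.squarefree_of_dvd hd ?_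
    rw [show (21945 : ℕ) = 3 * 5 * 7 * 11 * 19 by norm_num]
    simp only [Nat.squarefree_mul_iff]
    refine ⟨by norm_num, ⟨by norm_num, ⟨by norm_num, ⟨by norm_num, ?_, ?_⟩, ?_⟩, ?_⟩, ?_⟩ <;>
      exact (Nat.prime_iff.mp (by norm_num)).squarefree
  haveI : IsZGroup P := IsZGroup.of_squarefree hsq
  set A := commutator P
  haveI : IsCyclic A := IsZGroup.isCyclic_commutator P
  by_cases h19 : 19 ∣ Nat.card A
  · have hrA : r ∈ A := by
      have h1 : orderOf (QuotientGroup.mk r : P ⧸ A) ∣ 19 := by
        rw [← hr]; exact orderOf_map_dvd (QuotientGroup.mk' A) r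
      rcases (Nat.dvd_prime (by norm_num)).mp h1 with h | h
      · exact (QuotientGroup.eq_one_iff r).mp (orderOf_eq_one_iff.mp h)
      · exfalso
        have h2 : 19 ∣ A.index := by rw [← h, Subgroup.index]; exact orderOf_dvd_natCard _
        have h3 := mul_dvd_mul h19 h2
        rw [Subgroup.card_mul_index] at h3
        exact absurd (hsq 19 h3) (by norm_num)
    set s' : A := ⟨s * r * s⁻¹, (inferInstance : A.Normal).conj_mem r hrA s⟩
    have hs' : orderOf s' = 19 := by
      rw [← Subgroup.orderOf_coe, show (s' : P) = MulAut.conj s r from rfl, MulEquiv.orderOf_eq, hr]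
    have hr' : orderOf (⟨r, hrA⟩ : A) = 19 := by rw [← Subgroup.orderOf_coe]; exact hr
    obtain ⟨g, hg⟩ := IsCyclic.exists_ofOrder_eq_natCard (α := A)
    have hgen : ∀ x : A, x ∈ zpowers g := by
      intro x
      rw [show zpowers g = ⊤ from eq_top_of_card_eq _ (by rw [Nat.card_zpowers, hg])]
      exact mem_top x
    have hpow : ∀ x : A, x ^ 19 = 1 → x ∈ zpowers (⟨r, hrA⟩ : A) := by
      intro x hx
      letI := IsCyclic.commGroup (α := A)
      have hcy : Nat.card {y : A // y ^ 19 = 1} ≤ 19 := by
        classical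
        letI := Fintype.ofFinite A
        rw [Nat.card_eq_fintype_card, Fintype.card_subtype]
        exact IsCyclic.card_pow_eq_one_le (by norm_num)
      let f : zpowers (⟨r, hrA⟩ : A) → {y : A // y ^ 19 = 1} := fun y => ⟨y.1, by
        have := orderOf_dvd_of_mem_zpowers y.2
        rw [hr'] at this
        exact orderOf_dvd_iff_pow_eq_one.mp this⟩
      have hf : Function.Injective f := fun a b h => Subtype.ext (congrArg (fun z : {y : A // y ^ 19 = 1} => z.1) h)
      have hb := (Nat.bijective_iff_injective_and_card f).mpr ⟨hf, le_antisymm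
        (Nat.card_le_card_of_injective f hf) (by rw [Nat.card_zpowers, hr']; exact hcy)⟩
      obtain ⟨y, hy⟩ := hb.2 ⟨x, hx⟩
      have hy' : y.1 = x := congrArg Subtype.val hy
      exact hy' ▸ y.2
    obtain ⟨n, hn⟩ := mem_zpowers_iff.mp (hpow s' (by rw [← hs']; exact pow_orderOf_eq_one _))
    exact mem_zpowers_iff.mpr ⟨n, by simpa using congrArg Subtype.val hn⟩
  · -- `r` centralizes the commutator subgroup
    have hAd : Nat.card A ∣ 1155 := by
      have h1 : Nat.card A ∣ 1155 * 19 := by
        rw [show (1155 : ℕ) * 19 = 21945 by norm_num]; exact A.card_subgroup_dvd_card.trans hd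
      exact (Nat.Coprime.symm ((Nat.Prime.coprime_iff_not_dvd (by norm_num)).mpr h19)).dvd_of_dvd_mul_right h1
    have hcent : ∀ a ∈ A, r * a * r⁻¹ = a := by
      intro a ha
      let θ : MulAut A := MulAut.conjNormal r
      have h1 : orderOf θ ∣ 19 := by rw [← hr]; exact orderOf_map_dvd MulAut.conjNormal r
      have h2 : orderOf θ ∣ Nat.totient (Nat.card A) := by
        have := orderOf_dvd_natCard θ
        rwa [IsCyclic.card_mulAut] at this
      have h3 : θ = 1 := by
        rcases (Nat.dvd_prime (by norm_num)).mp h1 with h | h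
        · exact orderOf_eq_one_iff.mp h
        · exfalso
          rw [h] at h2
          have h4 := h2.trans (Nat.totient_dvd_of_dvd hAd)
          rw [totient_1155] at h4
          norm_num at h4
      have := congrArg (fun e : MulAut A => ((e ⟨a, ha⟩ : A) : P)) h3
      simpa [θ] using this
    set c := s * r * s⁻¹ * r⁻¹ with hc
    have hcA : c ∈ A := commutator_mem_commutator (mem_top s) (mem_top r)
    have hcr : Commute c r := by
      have h := hcent c hcA
      show c * r = r * c
      calc c * r = (r * c * r⁻¹) * r := by rw [h]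
      _ = r * c := by group
    have hc19 : c ^ 19 = 1 := by
      have h1 : (c * r) ^ 19 = 1 := by
        rw [hc, show s * r * s⁻¹ * r⁻¹ * r = s * r * s⁻¹ by group, conj_pow, ← hr, pow_orderOf_eq_one]; group
      rwa [hcr.mul_pow, show r ^ 19 = 1 by rw [← hr]; exact pow_orderOf_eq_one r, mul_one] at h1
    have hc1 : c = 1 := by
      rcases (Nat.dvd_prime (by norm_num)).mp (orderOf_dvd_of_pow_eq_one hc19) with h | h
      · exact orderOf_eq_one_iff.mp h
      · exfalso
        refine h19 ?_
        rw [← h, show orderOf c = orderOf (⟨c, hcA⟩ : A) from Subgroup.orderOf_coe (⟨c, hcA⟩ : A)]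
        exact orderOf_dvd_natCard _
    have : s * r * s⁻¹ = r := by
      calc s * r * s⁻¹ = c * r := by rw [hc]; group
      _ = r := by rw [hc1, one_mul]
    rw [this]; exact mem_zpowers r

/-- An odd subgroup of a simple group of order 175560 has fewer than 1463 elements. -/
theorem odd_card_lt {H : Type*} [Group H] [Finite H] [IsSimpleGroup H] (hH : Nat.card H = 175560)
    (P : Subgroup H) (hodd : Odd (Nat.card P)) : Nat.card P < 1463 := by
  classical
  by_contra hcon
  haveI : Fact (Nat.Prime 19) := ⟨by norm_num⟩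
  have hd : Nat.card P ∣ 21945 := by
    have h1 : Nat.card P ∣ 8 * 21945 := by
      rw [show (8 : ℕ) * 21945 = 175560 by norm_num, ← hH]; exact P.card_subgroup_dvd_card
    exact (Nat.Coprime.pow_right 3 (Nat.coprime_two_right.mpr hodd) : (Nat.card P).Coprime (2 ^ 3)).dvd_of_dvd_mul_left h1
  obtain ⟨h19, hlist⟩ := odd_divisor_facts hd (not_lt.mp hcon)
  obtain ⟨r, hr⟩ := exists_prime_orderOf_dvd_card' 19 h19
  set R : Subgroup H := zpowers (r : H)
  have hrH : orderOf (r : H) = 19 := by rw [Subgroup.orderOf_coe]; exact hr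
  have hRcard : Nat.card R = 19 := by rw [Nat.card_zpowers, hrH]
  have hPR : P ≤ normalizer (R : Set H) := by
    intro s hs
    have key : ∀ u ∈ P, ∀ x ∈ R, u * x * u⁻¹ ∈ R := by
      intro u hu x hx
      obtain ⟨n, rfl⟩ := mem_zpowers_iff.mp hx
      obtain ⟨m, hm⟩ := mem_zpowers_iff.mp (conj_mem_of_order_nineteen hd hr ⟨u, hu⟩)
      have hm' : (r : H) ^ m = u * r * u⁻¹ := by simpa using congrArg Subtype.val hm
      rw [← conj_zpow, ← hm', ← zpow_mul]
      exact zpow_mem (mem_zpowers _) _
    refine mem_normalizer_iff.mpr fun x => ⟨key s hs x, fun hx => ?_⟩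
    have := key s⁻¹ (inv_mem hs) _ hx
    rwa [show s⁻¹ * (s * x * s⁻¹) * s⁻¹⁻¹ = x by group] at this
  set N := normalizer (R : Set H)
  let S : Sylow 19 H := Sylow.ofCard R (by
    rw [hRcard, hH, show (175560 : ℕ) = 19 ^ 1 * 9240 by norm_num,
      Nat.factorization_mul (by norm_num) (by norm_num), Nat.Prime.factorization_pow (by norm_num)]
    simp [Nat.factorization_eq_zero_of_not_dvd (show ¬ 19 ∣ 9240 by norm_num)])
  have hSR : (S : Subgroup H) = R := rfl
  have hn : Nat.card (Sylow 19 H) = N.index := by rw [Sylow.card_eq_index_normalizer S]; rfl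
  have hmod : N.index % 19 = 1 := by rw [← hn]; exact card_sylow_modEq_one 19 H
  have hidx : Nat.card N * N.index = 175560 := by rw [Subgroup.card_mul_index, hH]
  have hPN : Nat.card P ∣ Nat.card N := card_dvd_of_le hPR
  have h20 : N.index = 20 := by
    obtain ⟨k, hk⟩ := hPN
    rw [hk] at hidx
    have hdiv : N.index ∣ 175560 / Nat.card P := ⟨k, by
      rw [← hidx, mul_assoc, Nat.mul_div_cancel_left _ Nat.card_pos, mul_comm]⟩
    have hle : N.index ≤ 120 := by
      refine (Nat.le_of_dvd ?_ hdiv).trans ?_
      · exact Nat.div_pos (Nat.le_of_dvd (by norm_num) (hd.trans (by norm_num))) Nat.card_pos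
      · calc 175560 / Nat.card P ≤ 175560 / 1463 := Nat.div_le_div_left (not_lt.mp hcon) (by norm_num)
        _ = 120 := by norm_num
    have hdvd : N.index ∣ 175560 := hH ▸ index_dvd_card N
    have hcases : ∀ n : Fin 121, ¬ (n.val % 19 = 1 ∧ n.val ∣ 175560) ∨ n.val = 1 ∨ n.val = 20 ∨
        (n.val ∣ 175560 ∧ n.val % 19 = 1 ∧ n.val ≠ 1 ∧ n.val ≠ 20 ∧
          ∀ q ∈ [1463, 1995, 3135, 4389, 7315, 21945], ¬ n.val ∣ 175560 / q) := by decide +kernel
    rcases hcases ⟨N.index, by omega⟩ with h | h | h | ⟨-, -, -, -, h⟩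
    · exact absurd ⟨hmod, hdvd⟩ h
    · exfalso
      have htop : N = ⊤ := index_eq_one.mp h
      haveI hnorm : R.Normal := normalizer_eq_top_iff.mp htop
      rcases hnorm.eq_bot_or_eq_top with e | e
      · have := hRcard; rw [e, card_bot] at this; omega
      · have := hRcard; rw [e, card_top, hH] at this; omega
    · exact h
    · exact absurd hdiv (h _ hlist)
  have hC : centralizer (R : Set H) ≤ R := by
    intro c hc
    have hcard : Nat.card (Sylow 19 H) = 20 := hn.trans h20
    -- the kernel of the action is trivial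
    have hker : ∀ g : H, (∀ T : Sylow 19 H, g • T = T) → g = 1 := by
      intro g hg
      let K := (MulAction.toPermHom H (Sylow 19 H)).ker
      have hgK : g ∈ K := by ext T; simp [hg T]
      rcases (inferInstance : K.Normal).eq_bot_or_eq_top with e | e
      · rwa [e, mem_bot] at hgK
      · exfalso
        obtain ⟨T, hT⟩ : ∃ T : Sylow 19 H, T ≠ S := by
          by_contra h
          push Not at h
          haveI : Subsingleton (Sylow 19 H) := ⟨fun a b => (h a).trans (h b).symm⟩
          have := Nat.card_of_subsingleton S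
          omega
        obtain ⟨x, hx⟩ := MulAction.exists_smul_eq H S T
        have hxK : x ∈ K := by rw [e]; exact mem_top x
        have : x • S = S := by
          have := MonoidHom.mem_ker.mp hxK
          exact congrFun (congrArg (fun e : Equiv.Perm (Sylow 19 H) => (e : Sylow 19 H → Sylow 19 H)) this) S
        exact hT (hx.symm.trans this)
    have hfixS : ∀ g ∈ N, g • S = S := fun g hg => Sylow.smul_eq_iff_mem_normalizer.mpr hg
    have hRN : ∀ g ∈ R, g ∈ N := fun g hg => le_normalizer hg
    have honly : ∀ g ∈ R, g ≠ 1 → ∀ T : Sylow 19 H, g • T = T → T = S := by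
      intro g hg hg1 T hT
      have hgT : g ∈ normalizer ((T : Subgroup H) : Set H) := Sylow.smul_eq_iff_mem_normalizer.mp hT
      have hgen : zpowers g = R := by
        refine eq_of_le_of_card_ge (zpowers_le.mpr hg) ?_
        rw [hRcard, Nat.card_zpowers]
        have := orderOf_dvd_of_mem_zpowers hg
        rw [hrH] at this
        rcases (Nat.dvd_prime (by norm_num)).mp this with h | h
        · exact absurd (orderOf_eq_one_iff.mp h) hg1
        · omega
      have hRT : R ≤ normalizer ((T : Subgroup H) : Set H) := hgen ▸ zpowers_le.mpr hgT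
      have h1 : R ≤ (T : Subgroup H) := by
        have hp : IsPGroup 19 R := IsPGroup.of_card (n := 1) (by rw [hRcard]; norm_num)
        have hsup := hp.to_sup_of_normal_right' T.2 hRT
        rw [← T.3 hsup le_sup_right]
        exact le_sup_left
      exact (Sylow.ext (S.3 T.2 h1)).symm ▸ rfl
    obtain ⟨T, hT⟩ : ∃ T : Sylow 19 H, T ≠ S := by
      by_contra h
      push Not at h
      haveI : Subsingleton (Sylow 19 H) := ⟨fun a b => (h a).trans (h b).symm⟩
      have := Nat.card_of_subsingleton S
      omega
    let f : R → {U : Sylow 19 H // U ≠ S} := fun g => ⟨(g : H) • T, fun h => hT (by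
      have := congrArg (fun U => (g : H)⁻¹ • U) h
      simp only [inv_smul_smul] at this
      rw [this, hfixS _ (hRN _ (inv_mem g.2))])⟩
    have hf : Function.Injective f := by
      intro a b hab
      have h1 : (a : H) • T = (b : H) • T := congrArg Subtype.val hab
      by_contra hne
      refine hT (honly ((b : H)⁻¹ * a) (mul_mem (inv_mem b.2) a.2) (fun e => hne (Subtype.ext (inv_mul_eq_one.mp e).symm)) T ?_)
      rw [mul_smul, h1, inv_smul_smul]
    have hbij : Function.Bijective f := (Nat.bijective_iff_injective_and_card f).mpr ⟨hf, by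
      letI := Fintype.ofFinite (Sylow 19 H)
      rw [hRcard, Nat.card_eq_fintype_card, Fintype.card_subtype_compl, Fintype.card_subtype_eq,
        ← Nat.card_eq_fintype_card, hcard]⟩
    have hcS : c • S = S := hfixS c (centralizer_le_normalizer _ hc)
    obtain ⟨g, hg⟩ := hbij.2 ⟨c • T, fun h => hT (by
      have := congrArg (fun U => c⁻¹ • U) h
      simp only [inv_smul_smul] at this
      rw [this]
      conv_lhs => rw [← hcS, inv_smul_smul])⟩
    have hgT : (g : H) • T = c • T := congrArg Subtype.val hg
    have hd : (g : H)⁻¹ * c = 1 := hker _ fun U => by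
      rcases eq_or_ne U S with rfl | hU
      · rw [mul_smul, hcS, hfixS _ (hRN _ (inv_mem g.2))]
      · obtain ⟨a, ha⟩ := hbij.2 ⟨U, hU⟩
        have ha' : (a : H) • T = U := congrArg Subtype.val ha
        rw [← ha', ← mul_smul]
        have hcomm : (g : H)⁻¹ * c * a = a * ((g : H)⁻¹ * c) := by
          have h1 := mem_centralizer_iff.mp hc a a.2
          have h2 : (a : H) * (g : H)⁻¹ = (g : H)⁻¹ * a := by
            obtain ⟨m, hm⟩ := mem_zpowers_iff.mp a.2
            obtain ⟨n, hn⟩ := mem_zpowers_iff.mp g.2
            rw [← hm, ← hn, ← zpow_neg, ← zpow_add, ← zpow_add, add_comm]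
          rw [mul_assoc, ← h1, ← mul_assoc, ← h2, mul_assoc]
        rw [hcomm, mul_smul, mul_smul, ← hgT, inv_smul_smul]
    rw [← inv_mul_eq_one.mp hd]
    exact g.2
  -- `P` embeds into the automorphisms of `R` modulo `R`
  have hker : (normalizerMonoidHom R).ker ≤ R.subgroupOf N := by
    rw [normalizerMonoidHom_ker]
    exact fun x hx => hC hx
  have h1 : Nat.card (normalizerMonoidHom R).ker ∣ 19 := by
    refine (card_dvd_of_le hker).trans ?_
    rw [Nat.card_congr (subgroupOfEquivOfLe (le_normalizer (H := R))).toEquiv, hRcard]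
  have h2 : Nat.card (normalizerMonoidHom R).range ∣ 18 := by
    refine (card_subgroup_dvd_card _).trans ?_
    haveI : IsCyclic R := inferInstance
    rw [IsCyclic.card_mulAut, hRcard, Nat.totient_prime (by norm_num)]
  have h3 : Nat.card N ∣ 19 * 18 := by
    rw [← Subgroup.card_mul_index (normalizerMonoidHom R).ker, Subgroup.index_ker]
    exact mul_dvd_mul h1 h2
  have h4 := Nat.le_of_dvd (by norm_num) (hPN.trans h3)
  omega

end CfsgLib.WeakJ1
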