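import Mathlib.Logic.Relation
import Cfsg.Agent.WeakClosureJ1.Automizer

/-!
The component of `t` in the commuting graph on its class, and `C(t) = W × C(Δ)`.
-/

set_option autoImplicit false
set_option linter.unusedSectionVars false
set_option linter.style.haveILetI false

namespace CfsgLib.WeakJ1

open Subgroup CfsgLib.JankoOrder

universe u

variable {G : Type u} [Group G] [Finite G]

namespace Sys

variable (D : Sys G)

/-- adjacency in the class -/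
def Adj (x y : G) : Prop := x ∈ D.X ∧ y ∈ D.X ∧ x * y = y * x

/-- the component of `t` -/
def Δ : Set G := {x | Relation.ReflTransGen D.Adj D.t x}

theorem Δ_sub {x : G} (h : x ∈ D.Δ) : x ∈ D.X := by
  induction h with
  | refl => exact D.t_mem_X
  | tail _ h _ => exact h.2.1

theorem t_mem_Δ : D.t ∈ D.Δ := Relation.ReflTransGen.refl

theorem Δ_adj {x y : G} (hx : x ∈ D.Δ) (hy : y ∈ D.X) (h : x * y = y * x) : y ∈ D.Δ :=
  Relation.ReflTransGen.tail hx ⟨D.Δ_sub hx, hy, h⟩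

theorem conj_rel {g x y : G} (h : Relation.ReflTransGen D.Adj x y) :
    Relation.ReflTransGen D.Adj (g * x * g⁻¹) (g * y * g⁻¹) := by
  refine h.lift (fun z => g * z * g⁻¹) fun a b hab => ⟨D.conj_X hab.1 _, D.conj_X hab.2.1 _, ?_⟩
  rw [show g * a * g⁻¹ * (g * b * g⁻¹) = g * (a * b) * g⁻¹ by group, hab.2.2]; group

theorem rel_symm {x y : G} (h : Relation.ReflTransGen D.Adj x y) : Relation.ReflTransGen D.Adj y x := by
  induction h with
  | refl => exact Relation.ReflTransGen.refl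
  | tail _ h ih => exact (Relation.ReflTransGen.single ⟨h.2.1, h.1, h.2.2.symm⟩).trans ih

/-- the stabilizer of the component -/
def M : Subgroup G := normalizer D.Δ

theorem mem_M_of {g : G} (h : g * D.t * g⁻¹ ∈ D.Δ) : g ∈ D.M := by
  have fwd : ∀ x ∈ D.Δ, g * x * g⁻¹ ∈ D.Δ := fun x hx => Relation.ReflTransGen.trans h (D.conj_rel hx)
  refine Subgroup.mem_set_normalizer_iff.mpr fun x => ⟨fwd x, fun hx => ?_⟩
  have h1 := D.conj_rel (g := g⁻¹) ((D.rel_symm h).trans hx)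
  simpa [mul_assoc, Δ] using h1

theorem M_conj {g x : G} (hg : g ∈ D.M) (hx : x ∈ D.Δ) : g * x * g⁻¹ ∈ D.Δ :=
  (Subgroup.mem_set_normalizer_iff.mp hg x).mp hx

theorem cent_le_M {c : G} (h : c * D.t = D.t * c) : c ∈ D.M :=
  D.mem_M_of (by rw [h, mul_inv_cancel_right]; exact D.t_mem_Δ)

theorem E_sub_Δ {x : G} (hx : x ∈ D.E) (h1 : x ≠ 1) : x ∈ D.Δ :=
  D.Δ_adj D.t_mem_Δ (D.E_sub_X hx h1) (D.E_comm D.t_mem hx)

theorem norm_E_le_M {n : G} (h : ∀ a, a ∈ D.E ↔ n * a * n⁻¹ ∈ D.E) : n ∈ D.M :=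
  D.mem_M_of (D.E_sub_Δ ((h _).mp D.t_mem) (D.X_ne (D.conj_X D.t_mem_X n)))

theorem σ_mem_M : D.σ ∈ D.M := D.norm_E_le_M D.σ_spec.1

theorem exists_conj_Δ {x : G} (hx : x ∈ D.Δ) : ∃ m ∈ D.M, x = m * D.t * m⁻¹ := by
  obtain ⟨g, rfl⟩ := D.Δ_sub hx
  exact ⟨g, D.mem_M_of hx, rfl⟩

theorem X_inter_M {x : G} (hx : x ∈ D.X) (hM : x ∈ D.M) : x ∈ D.Δ := by
  haveI : Fact (Nat.Prime 2) := ⟨Nat.prime_two⟩
  have hSM : (D.S : Subgroup G) ≤ D.M := fun s hs => D.cent_le_M (D.tc s hs)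
  have hp : IsPGroup 2 (zpowers (⟨x, hM⟩ : D.M)) := by
    refine IsPGroup.of_card (n := 1) ?_
    rw [Nat.card_zpowers, pow_one, ← Subgroup.orderOf_coe]
    exact orderOf_eq_prime (by rw [pow_two]; exact D.X_sq hx) (D.X_ne hx)
  obtain ⟨T, hT⟩ := hp.exists_le_sylow
  obtain ⟨m, hm⟩ := MulAction.exists_smul_eq D.M T (D.S.subtype hSM)
  have h1 : m * ⟨x, hM⟩ * m⁻¹ ∈ ((m • T : Sylow 2 D.M) : Subgroup D.M) := by
    rw [Sylow.coe_subgroup_smul, mem_pointwise_smul_iff_inv_smul_mem]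
    simpa [MulAut.smul_def, mul_assoc] using hT (mem_zpowers _)
  rw [hm] at h1
  have h2 : (m : G) * x * (m : G)⁻¹ ∈ (D.S : Subgroup G) := by
    simpa [Subgroup.mem_subgroupOf] using h1
  have h3 := D.E_sub_Δ (D.X_S (D.conj_X hx _) h2) (D.X_ne (D.conj_X hx _))
  simpa [mul_assoc] using D.M_conj (inv_mem m.2) h3

/-- the centralizer of the component -/
def C : Subgroup G := centralizer D.Δ

theorem C_comm {c : G} (hc : c ∈ D.C) {x : G} (hx : x ∈ D.Δ) : c * x = x * c :=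
  (mem_centralizer_iff.mp hc x hx).symm

theorem C_le_K : D.C ≤ D.K := by
  intro c hc
  have hle : D.W ≤ centralizer ({c} : Set G) := D.W_induction fun x hx hxt =>
    mem_centralizer_singleton_iff.mpr (D.C_comm hc (D.Δ_adj D.t_mem_Δ hx hxt.symm)).symm
  exact mem_centralizer_iff.mpr fun y hy => mem_centralizer_singleton_iff.mp (hle hy)

theorem M_conj_C {m : G} (hm : m ∈ D.M) {c : G} (hc : c ∈ D.C) : m * c * m⁻¹ ∈ D.C := by
  refine mem_centralizer_iff.mpr fun x hx => ?_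
  have h := D.C_comm hc (D.M_conj (inv_mem hm) hx)
  calc x * (m * c * m⁻¹) = m * ((m⁻¹ * x * m⁻¹⁻¹) * c) * m⁻¹ := by group
  _ = m * (c * (m⁻¹ * x * m⁻¹⁻¹)) * m⁻¹ := by rw [h]
  _ = m * c * m⁻¹ * x := by group

theorem σpow_E (n : ℕ) {a : G} (ha : a ∈ D.E) : D.σ ^ n * a * (D.σ ^ n)⁻¹ ∈ D.E := by
  induction n with
  | zero => simpa using ha
  | succ n ih =>
    rw [show D.σ ^ (n + 1) * a * (D.σ ^ (n + 1))⁻¹ = D.σ * (D.σ ^ n * a * (D.σ ^ n)⁻¹) * D.σ⁻¹ by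
      rw [pow_succ']; group]
    exact (D.σ_spec.1 _).mp ih

theorem mem_W_split {x : G} (hx : x ∈ D.X) (hc : x * D.t = D.t * x) :
    ∃ w' ∈ D.W, ∃ a ∈ D.E, a ≠ 1 ∧ x = w' * a * w'⁻¹ := by
  obtain ⟨k, hk⟩ := D.mem_W hx hc
  have hk2 : k * k = 1 := D.inj (by rw [map_mul, map_one, hk, D.X_sq hx])
  obtain ⟨g, hg⟩ := (inv_conj k).resolve_left (fun h => h hk2)
  refine ⟨(D.φ g)⁻¹, inv_mem ⟨g, rfl⟩, D.φ g * x * (D.φ g)⁻¹, D.mem_E.mpr ⟨g * k * g⁻¹, hg, ?_⟩,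
    D.X_ne (D.conj_X hx _), by group⟩
  rw [map_mul, map_mul, map_inv, hk]

/-- elements centralizing every `σ`-translate of `W` centralize the component -/
theorem mem_C_of {c : G} (h : ∀ i : Fin 7, (D.σ ^ i.val)⁻¹ * c * D.σ ^ i.val ∈ D.K) : c ∈ D.C := by
  let P : G → Prop := fun x => ∀ y ∈ D.X, x * y = y * x → ∀ z ∈ D.X, y * z = z * y → c * z = z * c
  have hnb : ∀ (k : G) (u : G), (∀ z ∈ D.X, k * D.t * k⁻¹ * z = z * (k * D.t * k⁻¹) → c * z = z * c) →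
      u ∈ D.W → c * (k * u * k⁻¹) = (k * u * k⁻¹) * c := by
    intro k u hk hu
    have hle : D.W ≤ (centralizer ({c} : Set G)).comap (MulAut.conj k).toMonoidHom :=
      D.W_induction fun x hx hxt => mem_centralizer_singleton_iff.mpr
        (hk _ (D.conj_X hx k) (by
          rw [show k * D.t * k⁻¹ * (k * x * k⁻¹) = k * (D.t * x) * k⁻¹ by group, ← hxt]; group)).symm
    exact (mem_centralizer_singleton_iff.mp (hle hu)).symm
  have base : P D.t := by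
    intro y hy hty z hz hyz
    obtain ⟨w', hw', a, ha, ha1, rfl⟩ := D.mem_W_split hy hty.symm
    obtain ⟨i, rfl⟩ := D.εF_surj ha ha1
    have hcw : c * w' = w' * c := by
      have h0 := h 0
      simp only [Fin.val_zero, pow_zero, inv_one, one_mul, mul_one] at h0
      exact D.K_comm h0 hw'
    set z' := (w' * D.σ ^ i.val)⁻¹ * z * (w' * D.σ ^ i.val) with hz'
    have hz'W : z' ∈ D.W := by
      refine D.mem_W (by simpa [hz'] using D.conj_X hz (w' * D.σ ^ i.val)⁻¹) ?_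
      have : D.εF i = D.σ ^ i.val * D.t * (D.σ ^ i.val)⁻¹ := rfl
      rw [this] at hyz
      rw [hz']
      calc (w' * D.σ ^ i.val)⁻¹ * z * (w' * D.σ ^ i.val) * D.t
          = (w' * D.σ ^ i.val)⁻¹ * (z * (w' * (D.σ ^ i.val * D.t * (D.σ ^ i.val)⁻¹) * w'⁻¹)) *
            (w' * D.σ ^ i.val) := by group
      _ = D.t * ((w' * D.σ ^ i.val)⁻¹ * z * (w' * D.σ ^ i.val)) := by rw [← hyz]; group
    have hc' := D.K_comm (h i) hz'W
    rw [show z = w' * (D.σ ^ i.val * z' * (D.σ ^ i.val)⁻¹) * w'⁻¹ by rw [hz']; group]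
    have h2 : c * (D.σ ^ i.val * z' * (D.σ ^ i.val)⁻¹) = D.σ ^ i.val * z' * (D.σ ^ i.val)⁻¹ * c := by
      calc c * (D.σ ^ i.val * z' * (D.σ ^ i.val)⁻¹)
          = D.σ ^ i.val * (((D.σ ^ i.val)⁻¹ * c * D.σ ^ i.val) * z') * (D.σ ^ i.val)⁻¹ := by group
      _ = D.σ ^ i.val * z' * (D.σ ^ i.val)⁻¹ * c := by rw [hc']; group
    exact ((show Commute c w' from hcw).mul_right h2).mul_right (show Commute c w' from hcw).inv_right
  have step : ∀ x y, x ∈ D.X → P x → y ∈ D.X → x * y = y * x → P y := by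
    intro x y hx hP hy hxy z hz hyz v hv hzv
    obtain ⟨g, rfl⟩ := hx
    obtain ⟨w', hw', a, ha, ha1, hya⟩ := D.mem_W_split (x := g⁻¹ * y * g) (by simpa using D.conj_X hy g⁻¹) (by
      calc g⁻¹ * y * g * D.t = g⁻¹ * (y * (g * D.t * g⁻¹)) * g := by group
      _ = D.t * (g⁻¹ * y * g) := by rw [← hxy]; group)
    obtain ⟨i, rfl⟩ := D.εF_surj ha ha1
    set h' := g * w' with hh'
    have hxt : g * D.t * g⁻¹ = h' * D.t * h'⁻¹ := by
      rw [hh', show g * w' * D.t = g * (w' * D.t) by group, D.W_comm_t hw']; group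
    set k := h' * D.σ ^ i.val with hk
    have hyk : y = k * D.t * k⁻¹ := by
      calc y = g * (g⁻¹ * y * g) * g⁻¹ := by group
      _ = g * (w' * (D.σ ^ i.val * D.t * (D.σ ^ i.val)⁻¹) * w'⁻¹) * g⁻¹ := by rw [hya]; rfl
      _ = k * D.t * k⁻¹ := by rw [hk, hh']; group
    obtain ⟨w2, hw2, b, hb, hb1, hzb⟩ := D.mem_W_split (x := k⁻¹ * z * k) (by simpa using D.conj_X hz k⁻¹) (by
      rw [hyk] at hyz
      calc k⁻¹ * z * k * D.t = k⁻¹ * (z * (k * D.t * k⁻¹)) * k := by group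
      _ = D.t * (k⁻¹ * z * k) := by rw [← hyz]; group)
    set u := k * w2 * k⁻¹ with hu
    have hcu : c * u = u * c := hnb k w2 (fun q hq hqc => hP y hy hxy q hq (by rw [hyk]; exact hqc)) hw2
    set e' := k * b * k⁻¹ with he'
    have he'X : e' ∈ D.X := D.conj_X (D.E_sub_X hb hb1) k
    have hxe : g * D.t * g⁻¹ * e' = e' * (g * D.t * g⁻¹) := by
      have hb' := D.σpow_E i.val hb
      rw [hxt, he', hk]
      calc h' * D.t * h'⁻¹ * (h' * D.σ ^ i.val * b * (h' * D.σ ^ i.val)⁻¹)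
          = h' * (D.t * (D.σ ^ i.val * b * (D.σ ^ i.val)⁻¹)) * h'⁻¹ := by group
      _ = _ := by rw [D.E_comm D.t_mem hb']; group
    have hzu : z = u * e' * u⁻¹ := by
      calc z = k * (k⁻¹ * z * k) * k⁻¹ := by group
      _ = u * e' * u⁻¹ := by rw [hzb, hu, he']; group
    have hv' : c * (u⁻¹ * v * u) = (u⁻¹ * v * u) * c :=
      hP e' he'X hxe _ (by simpa using D.conj_X hv u⁻¹) (by
        rw [hzu] at hzv
        calc e' * (u⁻¹ * v * u) = u⁻¹ * (u * e' * u⁻¹ * v) * u := by group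
        _ = u⁻¹ * v * u * e' := by rw [hzv]; group)
    have := ((show Commute c u from hcu).mul_right hv').mul_right (show Commute c u from hcu).inv_right
    simpa [mul_assoc, Commute, SemiconjBy] using this
  have hall : ∀ x ∈ D.Δ, P x := by
    intro x hx
    induction hx with
    | refl => exact base
    | tail hab hbc ih => exact step _ _ hbc.1 ih hbc.2.1 hbc.2.2
  exact mem_centralizer_iff.mpr fun x hx =>
    (hall x hx x (D.Δ_sub hx) rfl x (D.Δ_sub hx) rfl).symm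

theorem cent_E_conj {n : G} (hn : ∀ a, a ∈ D.E ↔ n * a * n⁻¹ ∈ D.E) {c : G}
    (hc : c ∈ centralizer (D.E : Set G)) : n * c * n⁻¹ ∈ centralizer (D.E : Set G) := by
  refine mem_centralizer_iff.mpr fun y hy => ?_
  have h : n⁻¹ * y * n ∈ D.E := (hn _).mpr (by rwa [show n * (n⁻¹ * y * n) * n⁻¹ = y by group])
  have h2 := mem_centralizer_iff.mp hc _ h
  calc y * (n * c * n⁻¹) = n * ((n⁻¹ * y * n) * c) * n⁻¹ := by group
  _ = n * c * n⁻¹ * y := by rw [h2]; group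

theorem σinv_E {i : ℕ} (a : G) : a ∈ D.E ↔ (D.σ ^ i)⁻¹ * a * (D.σ ^ i)⁻¹⁻¹ ∈ D.E := by
  constructor
  · intro ha
    have hsur : Function.Surjective (fun b : D.E => (⟨_, D.σpow_E i b.2⟩ : D.E)) :=
      Finite.injective_iff_surjective.mp fun p q hpq =>
        Subtype.ext (mul_left_cancel (mul_right_cancel (congrArg Subtype.val hpq)))
    obtain ⟨b, hb⟩ := hsur ⟨a, ha⟩
    have hb' : D.σ ^ i * (b : G) * (D.σ ^ i)⁻¹ = a := congrArg Subtype.val hb
    rw [← hb', show (D.σ ^ i)⁻¹ * (D.σ ^ i * (b : G) * (D.σ ^ i)⁻¹) * (D.σ ^ i)⁻¹⁻¹ = b by group]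
    exact b.2
  · intro ha
    have := D.σpow_E i ha
    rwa [show D.σ ^ i * ((D.σ ^ i)⁻¹ * a * (D.σ ^ i)⁻¹⁻¹) * (D.σ ^ i)⁻¹ = a by group] at this

theorem sq_mem_C {c : G} (hc : c ∈ centralizer (D.E : Set G)) : c * c ∈ D.C := by
  refine D.mem_C_of fun i => ?_
  have h := D.cent_E_conj (fun a => D.σinv_E (i := i.val) a) hc
  obtain ⟨e, he, k, hk, hek⟩ := D.cent_E_split h
  have h2 : (D.σ ^ i.val)⁻¹ * (c * c) * D.σ ^ i.val = (e * k) * (e * k) := by rw [← hek]; group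
  rw [h2, show e * k * (e * k) = e * (k * e) * k by group, D.K_comm hk (D.E_le_W he),
    show e * (e * k) * k = (e * e) * (k * k) by group, D.E_sq he, one_mul]
  exact mul_mem hk hk

/-- `E C(Δ)` -/
def U : Subgroup G := D.E ⊔ D.C

theorem comm_mem_C {c d : G} (hc : c ∈ centralizer (D.E : Set G)) (hd : d ∈ centralizer (D.E : Set G)) :
    c * d * c⁻¹ * d⁻¹ ∈ D.C := by
  refine D.mem_C_of fun i => ?_
  obtain ⟨e, he, k, hk, hek⟩ := D.cent_E_split (D.cent_E_conj (fun a => D.σinv_E (i := i.val) a) hc)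
  obtain ⟨e', he', k', hk', hek'⟩ := D.cent_E_split (D.cent_E_conj (fun a => D.σinv_E (i := i.val) a) hd)
  rw [show (D.σ ^ i.val)⁻¹ * (c * d * c⁻¹ * d⁻¹) * D.σ ^ i.val =
    (e * k) * (e' * k') * (e * k)⁻¹ * (e' * k')⁻¹ by rw [← hek, ← hek']; group]
  have c1 : Commute k e' := D.K_comm hk (D.E_le_W he')
  have c2 : Commute k' e := D.K_comm hk' (D.E_le_W he)
  have c3 : Commute e e' := D.E_comm he he'
  have c4 : Commute k e := D.K_comm hk (D.E_le_W he)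
  have c5 : Commute k' e' := D.K_comm hk' (D.E_le_W he')
  have : (e * k) * (e' * k') * (e * k)⁻¹ * (e' * k')⁻¹ = k * k' * k⁻¹ * k'⁻¹ := by
    rw [c1.mul_mul_mul_comm, mul_inv_rev, mul_inv_rev]
    calc e * e' * (k * k') * (k⁻¹ * e⁻¹) * (k'⁻¹ * e'⁻¹) = e * e' * (k * k' * k⁻¹) * (e⁻¹ * k'⁻¹) * e'⁻¹ := by group
    _ = e * e' * (k * k' * k⁻¹) * (k'⁻¹ * e⁻¹) * e'⁻¹ := by rw [(c2.inv_inv).eq]
    _ = e * e' * ((k * k' * k⁻¹ * k'⁻¹) * (e⁻¹ * e'⁻¹)) := by group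
    _ = e * e' * ((e⁻¹ * e'⁻¹) * (k * k' * k⁻¹ * k'⁻¹)) := by
      rw [((((c4.inv_right).mul_right c1.inv_right).mul_left (c2.inv_right.mul_right c5.inv_right)).mul_left
        (c4.inv_inv.mul_right c1.inv_inv)).mul_left (c2.inv_inv.mul_right c5.inv_inv) |>.eq]
    _ = k * k' * k⁻¹ * k'⁻¹ := by
      rw [← mul_assoc, show e * e' * (e⁻¹ * e'⁻¹) = 1 by rw [c3.eq]; group, one_mul]
  rw [this]
  exact mul_mem (mul_mem (mul_mem hk hk') (inv_mem hk)) (inv_mem hk')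

end Sys

end CfsgLib.WeakJ1
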