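import Cfsg.Agent.WeakClosureJ1.Component

/-!
`C(t) = W × C(Δ)`.
-/

set_option autoImplicit false
set_option linter.unusedSectionVars false
set_option linter.style.haveILetI false

namespace CfsgLib.WeakJ1

open Subgroup CfsgLib.JankoOrder

universe u

variable {G : Type u} [Group G] [Finite G]

namespace Sys

variable (D : Sys G)

theorem t_not_mem_C : D.t ∉ D.C := by
  intro h
  have hX : ∀ x ∈ D.X, x * D.εF 1 = D.εF 1 * x → x * D.t = D.t * x := fun x hx hc =>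
    (D.C_comm h (D.Δ_adj (D.E_sub_Δ (D.εF_mem 1) (D.εF_ne 1)) hx hc.symm)).symm
  have hle : D.W ≤ (centralizer ({D.t} : Set G)).comap (MulAut.conj D.σ).toMonoidHom := by
    refine D.W_induction fun x hx hxt => mem_centralizer_singleton_iff.mpr (hX _ (D.conj_X hx D.σ) ?_)
    have he : D.εF 1 = D.σ * D.t * D.σ⁻¹ := by simp [εF, ε]
    show D.σ * x * D.σ⁻¹ * D.εF 1 = D.εF 1 * (D.σ * x * D.σ⁻¹)
    rw [he, show D.σ * x * D.σ⁻¹ * (D.σ * D.t * D.σ⁻¹) = D.σ * (x * D.t) * D.σ⁻¹ by group, hxt]; group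
  -- `σ⁻¹ t σ` is central in `W`, so it equals `t`
  have hk : D.σ⁻¹ * D.t * D.σ ∈ D.K := by
    refine mem_centralizer_iff.mpr fun y hy => ?_
    have h1 : D.σ * y * D.σ⁻¹ * D.t = D.t * (D.σ * y * D.σ⁻¹) := mem_centralizer_singleton_iff.mp (hle hy)
    calc y * (D.σ⁻¹ * D.t * D.σ) = D.σ⁻¹ * (D.σ * y * D.σ⁻¹ * D.t) * D.σ := by group
    _ = D.σ⁻¹ * D.t * D.σ * y := by rw [h1]; group
  have hE : D.σ⁻¹ * D.t * D.σ ∈ D.E := by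
    simpa using (D.σinv_E (i := 1) D.t).mp D.t_mem
  rcases D.E_inf_K hE hk with h1 | h1
  · exact D.t_ne (by
      calc D.t = D.σ * (D.σ⁻¹ * D.t * D.σ) * D.σ⁻¹ := by group
      _ = 1 := by rw [h1]; group)
  · exact D.σ_spec.2.1 (by
      calc D.σ * D.t * D.σ⁻¹ = D.σ * (D.σ⁻¹ * D.t * D.σ) * D.σ⁻¹ := by rw [h1]
      _ = D.t := by group)

theorem E_inf_C {x : G} (hE : x ∈ D.E) (hC : x ∈ D.C) : x = 1 := by
  rcases D.E_inf_K hE (D.C_le_K hC) with h | h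
  · exact h
  · exact absurd (h ▸ hC) D.t_not_mem_C

theorem C_E_comm {c : G} (hc : c ∈ D.C) {e : G} (he : e ∈ D.E) : c * e = e * c :=
  D.K_comm (D.C_le_K hc) (D.E_le_W he)

theorem C_le_cent_E : D.C ≤ centralizer (D.E : Set G) := fun _ hc =>
  mem_centralizer_iff.mpr fun _ hy => (D.C_E_comm hc hy).symm

theorem mem_U {x : G} : x ∈ D.U ↔ ∃ e ∈ D.E, ∃ c ∈ D.C, x = e * c := by
  constructor
  · intro hx
    have hn : D.E ≤ normalizer (D.C : Set G) := by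
      intro e he
      refine mem_normalizer_iff.mpr fun c => ⟨fun hc => ?_, fun hc => ?_⟩
      · rwa [← D.C_E_comm hc he, mul_inv_cancel_right]
      · have h := D.C_E_comm hc he
        have : c = e * c * e⁻¹ := by
          calc c = e⁻¹ * ((e * c * e⁻¹) * e) := by group
          _ = e * c * e⁻¹ := by rw [h, inv_mul_cancel_left]
        rwa [this]
    rw [U, ← SetLike.mem_coe, coe_mul_of_left_le_normalizer_right _ _ hn] at hx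
    obtain ⟨e, he, c, hc, rfl⟩ := Set.mem_mul.mp hx
    exact ⟨e, he, c, hc, rfl⟩
  · rintro ⟨e, he, c, hc, rfl⟩
    exact mul_mem (mem_sup_left he) (mem_sup_right hc)

theorem U_conj {n : G} (hn : ∀ a, a ∈ D.E ↔ n * a * n⁻¹ ∈ D.E) {u : G} (hu : u ∈ D.U) : n * u * n⁻¹ ∈ D.U := by
  obtain ⟨e, he, c, hc, rfl⟩ := D.mem_U.mp hu
  exact D.mem_U.mpr ⟨_, (hn e).mp he, _, D.M_conj_C (D.norm_E_le_M hn) hc, by group⟩

/-- the elements acting trivially on `C(E) / E C(Δ)` -/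
def Nρ : Subgroup G where
  carrier := {n | n ∈ normalizer (D.E : Set G) ∧
    ∀ c ∈ centralizer (D.E : Set G), n * c * n⁻¹ * c⁻¹ ∈ D.U}
  one_mem' := ⟨one_mem _, fun c _ => by simp⟩
  mul_mem' := by
    rintro n m ⟨hn, hn'⟩ ⟨hm, hm'⟩
    refine ⟨mul_mem hn hm, fun c hc => ?_⟩
    rw [show n * m * c * (n * m)⁻¹ * c⁻¹ = n * (m * c * m⁻¹ * c⁻¹) * n⁻¹ * (n * c * n⁻¹ * c⁻¹) by group]
    exact mul_mem (D.U_conj (mem_normalizer_iff.mp hn) (hm' c hc)) (hn' c hc)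
  inv_mem' := by
    rintro n ⟨hn, hn'⟩
    refine ⟨inv_mem hn, fun c hc => ?_⟩
    have h := hn' (n⁻¹ * c * n⁻¹⁻¹) (D.cent_E_conj (mem_normalizer_iff.mp (inv_mem hn)) hc)
    rw [show n⁻¹ * c * n⁻¹⁻¹ * c⁻¹ = (n * (n⁻¹ * c * n⁻¹⁻¹) * n⁻¹ * (n⁻¹ * c * n⁻¹⁻¹)⁻¹)⁻¹ by group]
    exact inv_mem h

theorem τ_fix {x : G} (hx : x ∈ D.E) (h : D.τ * x * D.τ⁻¹ = x) : x = 1 ∨ x = D.t := by
  obtain ⟨p1, p2, p3, p4⟩ := D.τ_perm
  obtain ⟨n1, n2, n3, n4, n5, n6, n7, n8, n9, m1, m2, m3⟩ := D.vw_facts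
  have q : ∀ a : G, D.τ * (D.t * a) * D.τ⁻¹ = D.t * (D.τ * a * D.τ⁻¹) := fun a => by
    conv_rhs => rw [← p4]
    group
  rcases eq_or_ne x 1 with h1 | h1
  · exact Or.inl h1
  rcases D.E_cases hx h1 with rfl | rfl | rfl | rfl | rfl | rfl | rfl
  · exact Or.inr rfl
  · rw [p1] at h; exact absurd h.symm n5
  · rw [p3] at h; exact absurd h n4
  · rw [p2] at h; exact absurd h n6
  · rw [q, p1] at h; exact absurd (mul_left_cancel h).symm n5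
  · rw [q, p3] at h; exact absurd (mul_left_cancel h) n4
  · rw [q, p2] at h; exact absurd (mul_left_cancel h) n6

theorem τ_E {x : G} (hx : x ∈ D.E) : D.τ * x * D.τ⁻¹ ∈ D.E := by
  obtain ⟨p1, p2, p3, p4⟩ := D.τ_perm
  have hle : D.E ≤ D.E.comap (MulAut.conj D.τ).toMonoidHom := by
    refine D.E_le_of ?_ ?_ ?_ <;> show D.τ * _ * D.τ⁻¹ ∈ D.E
    · rw [p4]; exact D.t_mem
    · rw [p1]; exact mul_mem D.v_mem D.w_mem
    · rw [p3]; exact D.v_mem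
  exact hle hx

theorem τ_cube : D.τ ^ 3 = 1 := by
  rw [τ, ← map_pow, show (xK : Cen) ^ 3 = 1 by decide +kernel, map_one]

theorem τ_norm : D.τ ∈ normalizer (D.E : Set G) := by
  refine mem_normalizer_iff.mpr fun a => ⟨D.τ_E, fun ha => ?_⟩
  have h2 := D.τ_E (D.τ_E ha)
  rw [show D.τ * (D.τ * (D.τ * a * D.τ⁻¹) * D.τ⁻¹) * D.τ⁻¹ = D.τ ^ 3 * a * (D.τ ^ 3)⁻¹ by
    simp [pow_succ, mul_assoc], D.τ_cube] at h2
  simpa using h2

/-- the stabilizer of `t` in `N(E)` is `⟨τ⟩ C(E)` -/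
theorem stab_pow {n : G} (hnt : n * D.t = D.t * n) (hnE : ∀ a, a ∈ D.E ↔ n * a * n⁻¹ ∈ D.E) :
    ∃ i : ℕ, i < 3 ∧ (D.τ ^ i)⁻¹ * n ∈ centralizer (D.E : Set G) := by
  obtain ⟨p1, p2, p3, p4⟩ := D.τ_perm
  have hfix : ∀ i : ℕ, (D.τ ^ i)⁻¹ * n * D.t = D.t * ((D.τ ^ i)⁻¹ * n) := fun i => by
    have h2 := D.W_comm_t (inv_mem (pow_mem (⟨xK, rfl⟩ : D.τ ∈ D.W) i))
    rw [mul_assoc, hnt, ← mul_assoc, h2, mul_assoc]
  have hc : ∀ i : ℕ, n * D.v * n⁻¹ = D.τ ^ i * D.v * (D.τ ^ i)⁻¹ → n * D.w * n⁻¹ = D.τ ^ i * D.w * (D.τ ^ i)⁻¹ →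
      (D.τ ^ i)⁻¹ * n ∈ centralizer (D.E : Set G) := by
    intro i h1 h2
    have key : ∀ x : G, n * x * n⁻¹ = D.τ ^ i * x * (D.τ ^ i)⁻¹ →
        (D.τ ^ i)⁻¹ * n * x = x * ((D.τ ^ i)⁻¹ * n) := fun x h => by
      calc (D.τ ^ i)⁻¹ * n * x = (D.τ ^ i)⁻¹ * (n * x * n⁻¹) * n := by group
      _ = x * ((D.τ ^ i)⁻¹ * n) := by rw [h]; group
    exact D.cent_E_of (hfix i) (key _ h1) (key _ h2)
  rcases D.stab_act hnt hnE with ⟨a, b⟩ | ⟨a, b⟩ | ⟨a, b⟩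
  · exact ⟨0, by omega, hc 0 (by simpa using a) (by simpa using b)⟩
  · refine ⟨2, by omega, hc 2 ?_ ?_⟩ <;> rw [show D.τ ^ 2 = D.τ * D.τ from pow_two _] <;>
      rw [mul_inv_rev]
    · rw [a, show D.τ * D.τ * D.v * (D.τ⁻¹ * D.τ⁻¹) = D.τ * (D.τ * D.v * D.τ⁻¹) * D.τ⁻¹ by group, p1, p2]
    · rw [b, show D.τ * D.τ * D.w * (D.τ⁻¹ * D.τ⁻¹) = D.τ * (D.τ * D.w * D.τ⁻¹) * D.τ⁻¹ by group, p3, p1]
  · refine ⟨1, by omega, hc 1 ?_ ?_⟩ <;> rw [pow_one]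
    · rw [a, p1]
    · rw [b, p3]

theorem σ_norm : D.σ ∈ normalizer (D.E : Set G) := mem_normalizer_iff.mpr D.σ_spec.1

theorem norm_split {n : G} (hn : n ∈ normalizer (D.E : Set G)) :
    ∃ i : Fin 7, ∃ a : ℕ, ∃ c ∈ centralizer (D.E : Set G), n = D.σ ^ i.val * D.τ ^ a * c ∧ n * D.t * n⁻¹ = D.εF i := by
  obtain ⟨i, hi⟩ := D.εF_surj ((mem_normalizer_iff.mp hn D.t).mp D.t_mem)
    (D.X_ne (D.conj_X D.t_mem_X n))
  set s := (D.σ ^ i.val)⁻¹ * n with hs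
  have hst : s * D.t = D.t * s := by
    have he : D.εF i = D.σ ^ i.val * D.t * (D.σ ^ i.val)⁻¹ := rfl
    calc s * D.t = (D.σ ^ i.val)⁻¹ * (n * D.t * n⁻¹) * n := by rw [hs]; group
    _ = D.t * s := by rw [← hi, he, hs]; group
  obtain ⟨a, -, ha⟩ := D.stab_pow hst (mem_normalizer_iff.mp (mul_mem (inv_mem (pow_mem D.σ_norm _)) hn))
  exact ⟨i, a, _, ha, by rw [hs]; group, hi.symm⟩

theorem C_E_mem_Nρ {c : G} (hc : c ∈ centralizer (D.E : Set G)) : c ∈ D.Nρ := by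
  refine ⟨mem_normalizer_iff.mpr fun a => ⟨fun ha => ?_, fun ha => ?_⟩, fun d hd =>
    D.mem_U.mpr ⟨1, one_mem _, _, D.comm_mem_C hc hd, by group⟩⟩
  · rwa [← (mem_centralizer_iff.mp hc a ha), mul_inv_cancel_right]
  · have h := mem_centralizer_iff.mp hc _ ha
    have : a = c * a * c⁻¹ := by
      calc a = c⁻¹ * ((c * a * c⁻¹) * c) := by group
      _ = c * a * c⁻¹ := by rw [h, inv_mul_cancel_left]
    rwa [this]

theorem τ_mem_Nρ : D.τ ∈ D.Nρ := by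
  refine ⟨D.τ_norm, fun c hc => ?_⟩
  obtain ⟨e, he, k, hk, rfl⟩ := D.cent_E_split hc
  have h := D.K_comm hk (⟨xK, rfl⟩ : D.τ ∈ D.W)
  have : D.τ * (e * k) * D.τ⁻¹ * (e * k)⁻¹ = D.τ * e * D.τ⁻¹ * e⁻¹ := by
    calc D.τ * (e * k) * D.τ⁻¹ * (e * k)⁻¹ = D.τ * e * (k * D.τ⁻¹ * k⁻¹) * e⁻¹ := by group
    _ = _ := by rw [show k * D.τ⁻¹ * k⁻¹ = D.τ⁻¹ by
                      calc k * D.τ⁻¹ * k⁻¹ = (k * D.τ * k⁻¹)⁻¹ := by group
                      _ = _ := by rw [h, mul_inv_cancel_right]]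
  rw [this]
  exact D.mem_U.mpr ⟨_, mul_mem (D.τ_E he) (inv_mem he), 1, one_mem _, by group⟩

theorem σ_mem_Nρ : D.σ ∈ D.Nρ := by
  set n := D.σ⁻¹ * D.τ * D.σ with hn
  have hnN : n ∈ normalizer (D.E : Set G) := mul_mem (mul_mem (inv_mem D.σ_norm) D.τ_norm) D.σ_norm
  have hnρ : n ∈ D.Nρ := by
    refine ⟨hnN, fun c hc => ?_⟩
    rw [hn, show D.σ⁻¹ * D.τ * D.σ * c * (D.σ⁻¹ * D.τ * D.σ)⁻¹ * c⁻¹ =
      D.σ⁻¹ * (D.τ * (D.σ * c * D.σ⁻¹) * D.τ⁻¹ * (D.σ * c * D.σ⁻¹)⁻¹) * D.σ⁻¹⁻¹ by group]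
    exact D.U_conj (mem_normalizer_iff.mp (inv_mem D.σ_norm)) (D.τ_mem_Nρ.2 _ (D.cent_E_conj D.σ_spec.1 hc))
  obtain ⟨i, a, c, hc, he, ht⟩ := D.norm_split hnN
  have hσi : D.σ ^ i.val ∈ D.Nρ := by
    rw [show D.σ ^ i.val = n * (D.τ ^ a * c)⁻¹ by rw [he]; group]
    exact mul_mem hnρ (inv_mem (mul_mem (pow_mem D.τ_mem_Nρ _) (D.C_E_mem_Nρ hc)))
  have hi : i ≠ 0 := by
    rintro rfl
    rw [D.εF_zero, hn] at ht
    have h1 : D.τ * D.εF 1 * D.τ⁻¹ = D.εF 1 := by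
      have e1 : D.εF 1 = D.σ * D.t * D.σ⁻¹ := by simp [εF, ε]
      calc D.τ * D.εF 1 * D.τ⁻¹ = D.σ * (D.σ⁻¹ * D.τ * D.σ * D.t * (D.σ⁻¹ * D.τ * D.σ)⁻¹) * D.σ⁻¹ := by
            rw [e1]; group
      _ = D.εF 1 := by rw [ht, e1]
    rcases D.τ_fix (D.εF_mem 1) h1 with h | h
    · exact D.εF_ne 1 h
    · exact absurd (D.εF_inj (h.trans D.εF_zero.symm)) (by decide)
  obtain ⟨k, hk⟩ := D.σ_spec.2.2
  have hcop : Nat.Coprime i.val (7 ^ k) := by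
    refine Nat.Coprime.pow_right k (Nat.Coprime.symm ((Nat.Prime.coprime_iff_not_dvd (by norm_num)).mpr ?_))
    intro h
    have : i.val ≠ 0 := fun e => hi (Fin.ext e)
    have := Nat.le_of_dvd (by omega) h
    have := i.isLt
    omega
  have hbez := Nat.gcd_eq_gcd_ab i.val (7 ^ k)
  rw [hcop.gcd_eq_one] at hbez
  rw [← zpow_one D.σ, show (1 : ℤ) = ((1 : ℕ) : ℤ) from rfl, hbez, zpow_add, zpow_mul, zpow_mul,
    zpow_natCast, zpow_natCast, hk, one_zpow, mul_one]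
  exact zpow_mem hσi _

theorem surj_delta {d : G} (hd : d ∈ D.E) : ∃ e ∈ D.E, D.σ * e * D.σ⁻¹ * e⁻¹ = d := by
  let f : D.E → D.E := fun e => ⟨D.σ * e * D.σ⁻¹ * e⁻¹, mul_mem ((D.σ_spec.1 _).mp e.2) (inv_mem e.2)⟩
  have hf : Function.Surjective f := Finite.injective_iff_surjective.mp fun a b hab => by
    have h : D.σ * a * D.σ⁻¹ * (a : G)⁻¹ = D.σ * b * D.σ⁻¹ * (b : G)⁻¹ := congrArg Subtype.val hab
    have hfix : D.σ * ((b : G)⁻¹ * a) * D.σ⁻¹ = (b : G)⁻¹ * a := by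
      calc D.σ * ((b : G)⁻¹ * a) * D.σ⁻¹ = (D.σ * b * D.σ⁻¹)⁻¹ * (D.σ * a * D.σ⁻¹ * (a : G)⁻¹) * a := by group
      _ = (b : G)⁻¹ * a := by rw [h]; group
    refine Subtype.ext ?_
    by_contra hne
    obtain ⟨i, hi⟩ := D.εF_surj (mul_mem (inv_mem b.2) a.2) (fun e => hne (inv_mul_eq_one.mp e).symm)
    rw [← hi] at hfix
    have h1 := D.εF_add i 1
    rw [pow_one, hfix] at h1
    exact absurd (D.εF_inj h1) ((show ∀ i : Fin 7, i ≠ i + Fin.ofNat 7 1 by decide) i)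
  obtain ⟨e, he⟩ := hf ⟨d, hd⟩
  exact ⟨e, e.2, congrArg Subtype.val he⟩

theorem K_split {k : G} (hk : k ∈ D.K) : ∃ e ∈ D.E, ∃ c ∈ D.C, k = e * c := by
  have hkE : k ∈ centralizer (D.E : Set G) := mem_centralizer_iff.mpr fun y hy => (D.K_comm hk (D.E_le_W hy)).symm
  obtain ⟨d, hd, c0, hc0, hdc⟩ := D.mem_U.mp (D.σ_mem_Nρ.2 k hkE)
  obtain ⟨e, he, hed⟩ := D.surj_delta hd
  set k' := e⁻¹ * k with hk'
  have hk'E : k' ∈ centralizer (D.E : Set G) := by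
    refine mul_mem (inv_mem ?_) hkE
    exact mem_centralizer_iff.mpr fun y hy => D.E_comm hy he
  have hfix : D.σ * k' * D.σ⁻¹ * k'⁻¹ ∈ D.C := by
    have : D.σ * k' * D.σ⁻¹ * k'⁻¹ = (D.σ * e⁻¹ * D.σ⁻¹) * (D.σ * k * D.σ⁻¹ * k⁻¹) * e := by rw [hk']; group
    rw [this, hdc, ← hed, show D.σ * e⁻¹ * D.σ⁻¹ * (D.σ * e * D.σ⁻¹ * e⁻¹ * c0) * e = e⁻¹ * (c0 * e) by group,
      D.C_E_comm hc0 he, inv_mul_cancel_left]
    exact hc0
  have hfixn : ∀ n : ℕ, D.σ ^ n * k' * (D.σ ^ n)⁻¹ * k'⁻¹ ∈ D.C := by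
    intro n; induction n with
    | zero => simp
    | succ n ih =>
      rw [show D.σ ^ (n + 1) * k' * (D.σ ^ (n + 1))⁻¹ * k'⁻¹ =
        D.σ * (D.σ ^ n * k' * (D.σ ^ n)⁻¹ * k'⁻¹) * D.σ⁻¹ * (D.σ * k' * D.σ⁻¹ * k'⁻¹) by rw [pow_succ']; group]
      exact mul_mem (D.M_conj_C D.σ_mem_M ih) hfix
  set d' := D.τ * e⁻¹ * D.τ⁻¹ * e with hd'
  have hd'E : d' ∈ D.E := mul_mem (D.τ_E (inv_mem he)) he
  have hτk : D.τ * k' * D.τ⁻¹ = d' * k' := by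
    have h := D.K_comm hk (⟨xK, rfl⟩ : D.τ ∈ D.W)
    calc D.τ * k' * D.τ⁻¹ = D.τ * e⁻¹ * D.τ⁻¹ * (D.τ * k * D.τ⁻¹) := by rw [hk']; group
    _ = D.τ * e⁻¹ * D.τ⁻¹ * k := by rw [← h, mul_inv_cancel_right]
    _ = d' * k' := by rw [hd', hk']; group
  have hd1 : d' = 1 := by
    by_contra hne
    obtain ⟨i0, hi0⟩ := D.εF_surj hd'E hne
    have hvals : ∀ m : Fin 7, D.εF (i0 + m) = d' ∨ D.εF (i0 + m) = D.τ * d' * D.τ⁻¹ * d' := by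
      intro m
      have hwN : (D.σ ^ m.val * D.τ)⁻¹ ∈ normalizer (D.E : Set G) :=
        inv_mem (mul_mem (pow_mem D.σ_norm _) D.τ_norm)
      obtain ⟨i, a, c, hc, hw, -⟩ := D.norm_split hwN
      -- the translate of `d'`
      have hval : D.σ ^ m.val * d' * (D.σ ^ m.val)⁻¹ = D.εF (i0 + m) := by
        rw [← hi0, D.εF_add, show Fin.ofNat 7 m.val = m from Fin.ofNat_val_eq_self m]
      have hwk : (D.σ ^ m.val * D.τ) * k' * (D.σ ^ m.val * D.τ)⁻¹ * k'⁻¹ =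
          D.εF (i0 + m) * (D.σ ^ m.val * k' * (D.σ ^ m.val)⁻¹ * k'⁻¹) := by
        calc (D.σ ^ m.val * D.τ) * k' * (D.σ ^ m.val * D.τ)⁻¹ * k'⁻¹
            = D.σ ^ m.val * (D.τ * k' * D.τ⁻¹) * (D.σ ^ m.val)⁻¹ * k'⁻¹ := by group
        _ = _ := by rw [hτk, ← hval]; group
      set σk := (D.σ ^ i.val)⁻¹ * k' * D.σ ^ i.val with hσk
      have hσkC : σk * k'⁻¹ ∈ D.C := by
        have h1 := D.M_conj_C (inv_mem (pow_mem D.σ_mem_M i.val)) (inv_mem (hfixn i.val))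
        have h2 : (D.σ ^ i.val)⁻¹ * (D.σ ^ i.val * k' * (D.σ ^ i.val)⁻¹ * k'⁻¹)⁻¹ * (D.σ ^ i.val)⁻¹⁻¹ =
            σk * k'⁻¹ := by rw [hσk]; group
        rwa [h2] at h1
      have hinvw : D.σ ^ m.val * D.τ = c⁻¹ * (D.τ ^ a)⁻¹ * (D.σ ^ i.val)⁻¹ := by
        rw [← inv_inv (D.σ ^ m.val * D.τ), hw]; group
      set y := (D.τ ^ a)⁻¹ * k' * D.τ ^ a with hy
      have hyE : y ∈ centralizer (D.E : Set G) := by
        have := D.cent_E_conj (mem_normalizer_iff.mp (inv_mem (pow_mem D.τ_norm a))) hk'E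
        simpa [hy] using this
      have hz : (D.σ ^ m.val * D.τ) * k' * (D.σ ^ m.val * D.τ)⁻¹ * y⁻¹ ∈ D.C := by
        have e1 : (D.σ ^ m.val * D.τ) * k' * (D.σ ^ m.val * D.τ)⁻¹ * y⁻¹ =
            c⁻¹ * ((D.τ ^ a)⁻¹ * (σk * k'⁻¹) * (D.τ ^ a)⁻¹⁻¹) * c⁻¹⁻¹ * (c⁻¹ * y * c⁻¹⁻¹ * y⁻¹) := by
          rw [hinvw, hy, hσk]; group
        rw [e1]
        exact mul_mem (D.M_conj_C (inv_mem (D.norm_E_le_M (mem_normalizer_iff.mp (D.C_E_mem_Nρ hc).1)))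
          (D.M_conj_C (inv_mem (pow_mem (D.norm_E_le_M (mem_normalizer_iff.mp D.τ_norm)) _)) hσkC))
          (D.comm_mem_C (inv_mem hc) hyE)
      -- the value of `y`
      obtain ⟨b, hb3, hyb⟩ : ∃ b : ℕ, b < 3 ∧ y = D.τ ^ b * k' * (D.τ ^ b)⁻¹ := by
        refine ⟨(3 - a % 3) % 3, Nat.mod_lt _ (by omega), ?_⟩
        have e0 : (D.τ ^ a)⁻¹ = D.τ ^ ((3 - a % 3) % 3) := by
          refine inv_eq_of_mul_eq_one_left ?_
          rw [← pow_add, pow_eq_pow_mod _ D.τ_cube]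
          rw [show ((3 - a % 3) % 3 + a) % 3 = 0 by omega, pow_zero]
        rw [hy, e0]
        conv_lhs => rw [show D.τ ^ a = ((D.τ ^ a)⁻¹)⁻¹ by group, e0]
      have hfin : ∀ δ ∈ D.E, y = δ * k' → D.εF (i0 + m) = δ := by
        intro δ hδ hyd
        have hmem : D.εF (i0 + m) * δ⁻¹ ∈ D.C := by
          have hA := hfixn m.val
          have e1 : (D.σ ^ m.val * D.τ) * k' * (D.σ ^ m.val * D.τ)⁻¹ * y⁻¹ =
              D.εF (i0 + m) * (D.σ ^ m.val * k' * (D.σ ^ m.val)⁻¹ * k'⁻¹) * δ⁻¹ := by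
            rw [← hwk, hyd]; group
          rw [e1, mul_assoc, D.C_E_comm hA (inv_mem hδ), ← mul_assoc] at hz
          exact (mul_mem_cancel_right hA).mp hz
        exact mul_inv_eq_one.mp (D.E_inf_C (mul_mem (D.εF_mem _) (inv_mem hδ)) hmem)
      interval_cases b
      · exact absurd (hfin 1 (one_mem _) (by simpa using hyb)) (D.εF_ne _)
      · exact Or.inl (hfin d' hd'E (by rw [hyb, pow_one, hτk]))
      · refine Or.inr (hfin _ (mul_mem (D.τ_E hd'E) hd'E) ?_)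
        rw [hyb, show D.τ ^ 2 * k' * (D.τ ^ 2)⁻¹ = D.τ * (D.τ * k' * D.τ⁻¹) * D.τ⁻¹ by rw [pow_two]; group, hτk,
          show D.τ * (d' * k') * D.τ⁻¹ = D.τ * d' * D.τ⁻¹ * (D.τ * k' * D.τ⁻¹) by group, hτk]
        group
    have hne2 : ∀ x y : Fin 7, x ≠ y → D.εF (i0 + x) ≠ D.εF (i0 + y) := fun x y h e =>
      h (add_left_cancel (D.εF_inj e))
    rcases hvals 0 with a | a <;> rcases hvals 1 with b | b <;> rcases hvals 2 with c | c <;>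
      first
        | exact hne2 0 1 (by decide) (a.trans b.symm)
        | exact hne2 0 2 (by decide) (a.trans c.symm)
        | exact hne2 1 2 (by decide) (b.trans c.symm)
  have he2 : e ∈ D.K := by
    have h1 : D.τ * e * D.τ⁻¹ = e := by
      calc D.τ * e * D.τ⁻¹ = (D.τ * e⁻¹ * D.τ⁻¹ * e * e⁻¹)⁻¹ := by group
      _ = e := by rw [← hd', hd1, one_mul, inv_inv]
    rcases D.τ_fix he h1 with rfl | rfl
    · exact one_mem _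
    · exact D.t_mem_K
  have hk'K : k' ∈ D.K := mul_mem (inv_mem he2) hk
  refine ⟨e, he, k', D.mem_C_of fun i => ?_, by rw [hk']; group⟩
  have h1 := D.C_le_K (D.M_conj_C (inv_mem (pow_mem D.σ_mem_M i.val)) (inv_mem (hfixn i.val)))
  have h2 : (D.σ ^ i.val)⁻¹ * (D.σ ^ i.val * k' * (D.σ ^ i.val)⁻¹ * k'⁻¹)⁻¹ * (D.σ ^ i.val)⁻¹⁻¹ =
      (D.σ ^ i.val)⁻¹ * k' * D.σ ^ i.val * k'⁻¹ := by group
  rw [h2] at h1
  exact (mul_mem_cancel_right (inv_mem hk'K)).mp h1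

/-- `C(t) = W C(Δ)`. -/
theorem cent_t_W_C {c : G} (hc : c * D.t = D.t * c) : ∃ w' ∈ D.W, ∃ d ∈ D.C, c = w' * d := by
  obtain ⟨w', hw', k, hk, rfl⟩ := D.cent_t_split hc
  obtain ⟨e, he, d, hd, rfl⟩ := D.K_split hk
  exact ⟨w' * e, mul_mem hw' (D.E_le_W he), d, hd, (mul_assoc _ _ _).symm⟩

theorem W_inf_C {x : G} (hW : x ∈ D.W) (hC : x ∈ D.C) : x = 1 := by
  obtain ⟨k, rfl⟩ := hW
  rcases central_eq k (fun l => D.inj (by
      rw [map_mul, map_mul]; exact D.K_comm (D.C_le_K hC) ⟨l, rfl⟩)) with h | h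
  · rw [h, map_one]
  · rw [h] at hC; exact absurd hC D.t_not_mem_C

end Sys

end CfsgLib.WeakJ1
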