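import Mathlib.Dynamics.PeriodicPts.Defs
import Cfsg.Agent.WeakClosureJ1.Basic

/-!
The normalizer of `E` is transitive on the involutions of `E`.
-/

set_option autoImplicit false
set_option linter.unusedSectionVars false
set_option linter.style.haveILetI false

namespace CfsgLib.WeakJ1

open Subgroup CfsgLib.JankoOrder

universe u

variable {G : Type u} [Group G] [Finite G]

namespace Sys

variable (D : Sys G)

/-- the stabilizer of `t` in the normalizer of `E` -/
def St : Subgroup G := normalizer (D.E : Set G) ⊓ centralizer ({D.t} : Set G)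

/-- the members of the class inside `E` -/
def Y : Set G := {x | x ∈ D.X ∧ x ∈ D.E}

theorem card_Y : (D.St).relIndex (normalizer (D.E : Set G)) = D.Y.ncard := by
  set N := normalizer (D.E : Set G)
  have hnm : ∀ n : N, (n : G) * D.t * (n : G)⁻¹ ∈ D.Y := fun n =>
    ⟨D.conj_X D.t_mem_X _, (mem_normalizer_iff.mp n.2 D.t).mp D.t_mem⟩
  let f : N ⧸ D.St.subgroupOf N → ↥D.Y := Quotient.lift (fun n : N => (⟨_, hnm n⟩ : D.Y)) (by
    intro a b hab
    have h := (QuotientGroup.leftRel_apply).mp hab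
    rw [mem_subgroupOf, St, mem_inf, mem_centralizer_singleton_iff] at h
    refine Subtype.ext ?_
    have h2 := h.2
    push_cast at h2
    calc (a : G) * D.t * (a : G)⁻¹ = a * (D.t * ((a : G)⁻¹ * b)) * (b : G)⁻¹ := by group
    _ = (a : G) * (((a : G)⁻¹ * b) * D.t) * (b : G)⁻¹ := by rw [h2]
    _ = b * D.t * (b : G)⁻¹ := by group)
  have hf : Function.Bijective f := by
    refine ⟨?_, ?_⟩
    · intro q r
      obtain ⟨a, rfl⟩ := QuotientGroup.mk_surjective q
      obtain ⟨b, rfl⟩ := QuotientGroup.mk_surjective r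
      intro h
      have h' : (a : G) * D.t * (a : G)⁻¹ = b * D.t * (b : G)⁻¹ := congrArg Subtype.val h
      refine QuotientGroup.eq.mpr ?_
      rw [mem_subgroupOf, St, mem_inf, mem_centralizer_singleton_iff]
      refine ⟨(a⁻¹ * b).2, ?_⟩
      push_cast
      calc (a : G)⁻¹ * b * D.t = (a : G)⁻¹ * (b * D.t * (b : G)⁻¹) * b := by group
      _ = D.t * ((a : G)⁻¹ * b) := by rw [← h']; group
    · rintro ⟨x, hx, hxE⟩
      obtain ⟨n, hn, hE⟩ := D.conj_E_of_fix hx hxE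
      exact ⟨QuotientGroup.mk (⟨n, mem_normalizer_iff.mpr hE⟩ : N), Subtype.ext hn⟩
  rw [Subgroup.relIndex, Subgroup.index, Nat.card_congr (Equiv.ofBijective f hf), Nat.card_coe_set_eq]

theorem odd_card_Y : Odd D.Y.ncard := by
  haveI : Fact (Nat.Prime 2) := ⟨Nat.prime_two⟩
  rw [← D.card_Y, ← Nat.not_even_iff_odd, even_iff_two_dvd]
  intro h
  have h1 : (D.S : Subgroup G).relIndex D.St * D.St.relIndex (normalizer (D.E : Set G)) =
      (D.S : Subgroup G).relIndex (normalizer (D.E : Set G)) :=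
    relIndex_mul_relIndex _ _ _ D.S_le_stab inf_le_left
  have h2 : (2 : ℕ) ∣ (D.S : Subgroup G).relIndex (normalizer (D.E : Set G)) := h1 ▸ h.mul_left _
  have h3 := relIndex_mul_index (D.S_le_stab.trans inf_le_left)
  exact D.S.not_dvd_index (h3 ▸ h2.mul_right _)

theorem vw_facts : D.v ≠ D.t ∧ D.w ≠ D.t ∧ D.v * D.w ≠ D.t ∧ D.v ≠ D.w ∧ D.v ≠ D.v * D.w ∧ D.w ≠ D.v * D.w ∧
    D.t * D.v ≠ D.t ∧ D.t * D.w ≠ D.t ∧ D.t * (D.v * D.w) ≠ D.t ∧
    D.v ≠ 1 ∧ D.w ≠ 1 ∧ D.v * D.w ≠ 1 := by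
  simp only [v, w, t, ← map_mul]
  have hne : ∀ {a b : Cen}, a ≠ b → D.φ a ≠ D.φ b := fun h e => h (D.inj e)
  have h1 : ∀ {a : Cen}, a ≠ 1 → D.φ a ≠ 1 := fun h e => h (D.inj (by rw [map_one]; exact e))
  exact ⟨hne (by decide +kernel), hne (by decide +kernel), hne (by decide +kernel), hne (by decide +kernel),
    hne (by decide +kernel), hne (by decide +kernel), hne (by decide +kernel), hne (by decide +kernel),
    hne (by decide +kernel), h1 (by decide +kernel), h1 (by decide +kernel), h1 (by decide +kernel)⟩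

theorem orbit_v : (D.v ∈ D.X ∨ D.w ∈ D.X ∨ D.v * D.w ∈ D.X → D.v ∈ D.X ∧ D.w ∈ D.X ∧ D.v * D.w ∈ D.X) ∧
    (D.t * D.v ∈ D.X ∨ D.t * D.w ∈ D.X ∨ D.t * (D.v * D.w) ∈ D.X →
      D.t * D.v ∈ D.X ∧ D.t * D.w ∈ D.X ∧ D.t * (D.v * D.w) ∈ D.X) := by
  obtain ⟨p1, p2, p3, p4⟩ := D.τ_perm
  have q : ∀ a : G, D.τ * (D.t * a) * D.τ⁻¹ = D.t * (D.τ * a * D.τ⁻¹) := fun a => by
    conv_rhs => rw [← p4]
    group
  constructor <;> intro h
  · have a1 : D.v ∈ D.X → D.v * D.w ∈ D.X := fun h => p1 ▸ D.conj_X h _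
    have a2 : D.v * D.w ∈ D.X → D.w ∈ D.X := fun h => p2 ▸ D.conj_X h _
    have a3 : D.w ∈ D.X → D.v ∈ D.X := fun h => p3 ▸ D.conj_X h _
    rcases h with h | h | h
    · exact ⟨h, a2 (a1 h), a1 h⟩
    · exact ⟨a3 h, h, a1 (a3 h)⟩
    · exact ⟨a3 (a2 h), a2 h, h⟩
  · have a1 : D.t * D.v ∈ D.X → D.t * (D.v * D.w) ∈ D.X := fun h => by
      have := D.conj_X h D.τ; rwa [q, p1] at this
    have a2 : D.t * (D.v * D.w) ∈ D.X → D.t * D.w ∈ D.X := fun h => by
      have := D.conj_X h D.τ; rwa [q, p2] at this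
    have a3 : D.t * D.w ∈ D.X → D.t * D.v ∈ D.X := fun h => by
      have := D.conj_X h D.τ; rwa [q, p3] at this
    rcases h with h | h | h
    · exact ⟨h, a2 (a1 h), a1 h⟩
    · exact ⟨a3 h, h, a1 (a3 h)⟩
    · exact ⟨a3 (a2 h), a2 h, h⟩

/-- All involutions of `E` are conjugate to `t`. -/
theorem E_sub_X {x : G} (hx : x ∈ D.E) (h1 : x ≠ 1) : x ∈ D.X := by
  obtain ⟨oV, oT⟩ := D.orbit_v
  obtain ⟨n1, n2, n3, n4, n5, n6, n7, n8, n9, m1, m2, m3⟩ := D.vw_facts
  have hcases : ∀ y ∈ D.Y, y = D.t ∨ (y = D.v ∨ y = D.w ∨ y = D.v * D.w) ∨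
      (y = D.t * D.v ∨ y = D.t * D.w ∨ y = D.t * (D.v * D.w)) := fun y hy => by
    rcases D.E_cases hy.2 (D.X_ne hy.1) with e | e | e | e | e | e | e <;> simp [e]
  have tvE : ∀ a, a ∈ D.E → D.t * a ∈ D.E := fun a ha => mul_mem D.t_mem ha
  by_cases hV : D.v ∈ D.X <;> by_cases hT : D.t * D.v ∈ D.X
  · obtain ⟨-, bw, bvw⟩ := oV (Or.inl hV)
    obtain ⟨-, cw, cvw⟩ := oT (Or.inl hT)
    rcases D.E_cases hx h1 with rfl | rfl | rfl | rfl | rfl | rfl | rfl
    exacts [D.t_mem_X, hV, bw, bvw, hT, cw, cvw]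
  · exfalso
    obtain ⟨-, bw, bvw⟩ := oV (Or.inl hV)
    have he : D.Y = {D.t, D.v, D.w, D.v * D.w} := by
      ext y; constructor
      · intro hy
        rcases hcases y hy with e | e | e
        · exact Or.inl e
        · rcases e with e | e | e <;> simp [e]
        · refine absurd (oT ?_).1 hT
          rcases e with e | e | e <;> rw [← e] <;> simp [hy.1]
      · rintro (rfl | rfl | rfl | rfl)
        exacts [⟨D.t_mem_X, D.t_mem⟩, ⟨hV, D.v_mem⟩, ⟨bw, D.w_mem⟩, ⟨bvw, mul_mem D.v_mem D.w_mem⟩]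
    have h := D.odd_card_Y
    rw [he, Set.ncard_insert_of_notMem, Set.ncard_insert_of_notMem, Set.ncard_pair n6] at h
    · exact absurd h (by decide)
    · simp [n4, n5]
    · simp [Ne.symm n1, Ne.symm n2, Ne.symm n3]
  · exfalso
    obtain ⟨-, cw, cvw⟩ := oT (Or.inl hT)
    have he : D.Y = {D.t, D.t * D.v, D.t * D.w, D.t * (D.v * D.w)} := by
      ext y; constructor
      · intro hy
        rcases hcases y hy with e | e | e
        · exact Or.inl e
        · refine absurd (oV ?_).1 hV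
          rcases e with e | e | e <;> rw [← e] <;> simp [hy.1]
        · rcases e with e | e | e <;> simp [e]
      · rintro (rfl | rfl | rfl | rfl)
        exacts [⟨D.t_mem_X, D.t_mem⟩, ⟨hT, tvE _ D.v_mem⟩, ⟨cw, tvE _ D.w_mem⟩,
          ⟨cvw, tvE _ (mul_mem D.v_mem D.w_mem)⟩]
    have h := D.odd_card_Y
    rw [he, Set.ncard_insert_of_notMem, Set.ncard_insert_of_notMem,
      Set.ncard_pair (by simpa using n6)] at h
    · exact absurd h (by decide)
    · simp [n4, n5]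
    · simp [m1, m2, m3]
  · exfalso
    obtain ⟨y, hy, hyE, hyt⟩ := D.exists_other
    rcases hcases y ⟨hy, hyE⟩ with e | e | e
    · exact hyt e
    · refine hV (oV ?_).1
      rcases e with e | e | e <;> rw [← e] <;> simp [hy]
    · refine hT (oT ?_).1
      rcases e with e | e | e <;> rw [← e] <;> simp [hy]

theorem Y_eq : D.Y = (D.E : Set G) \ {1} := by
  ext x
  exact ⟨fun h => ⟨h.2, D.X_ne h.1⟩, fun h => ⟨D.E_sub_X h.1 h.2, h.1⟩⟩

theorem card_E : Nat.card D.E = 8 := by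
  have h : Nat.card (centralizer ({vK} : Set Cen)) = 8 := by
    rw [← card_v, ← Nat.card_eq_fintype_card]
    exact Nat.card_congr (Equiv.subtypeEquivRight fun l => mem_centralizer_singleton_iff)
  rw [← h]
  exact Nat.card_congr (equivMapOfInjective _ D.φ D.inj).symm.toEquiv

theorem ncard_Y : D.Y.ncard = 7 := by
  rw [D.Y_eq, Set.ncard_sdiff_singleton_of_mem (one_mem D.E), ← Nat.card_coe_set_eq]
  exact congrArg (· - 1) D.card_E

/-- An element of seven-power order normalizing `E` and moving `t`. -/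
theorem exists_sigma : ∃ σ : G, (∀ a, a ∈ D.E ↔ σ * a * σ⁻¹ ∈ D.E) ∧ σ * D.t * σ⁻¹ ≠ D.t ∧
    ∃ k, σ ^ (7 ^ k) = 1 := by
  haveI : Fact (Nat.Prime 7) := ⟨by norm_num⟩
  set N := normalizer (D.E : Set G)
  obtain ⟨P⟩ : Nonempty (Sylow 7 N) := inferInstance
  by_contra hcon
  push Not at hcon
  have hPle : (P : Subgroup N) ≤ D.St.subgroupOf N := by
    intro n hn
    obtain ⟨k, hk⟩ := P.2 ⟨n, hn⟩
    have hk' : (n : G) ^ (7 ^ k) = 1 := by simpa using congrArg (fun z : ↥(P : Subgroup N) => ((z : N) : G)) hk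
    have h : (n : G) * D.t * (n : G)⁻¹ = D.t := by
      by_contra hne
      exact hcon n (mem_normalizer_iff.mp n.2) hne k hk'
    rw [mem_subgroupOf, St, mem_inf, mem_centralizer_singleton_iff]
    refine ⟨n.2, ?_⟩
    conv_rhs => rw [← h]
    group
  have h1 := index_dvd_of_le hPle
  have h2 : (D.St.subgroupOf N).index = 7 := by
    rw [← Subgroup.relIndex, D.card_Y, D.ncard_Y]
  exact P.not_dvd_index (by rwa [h2] at h1)

/-- The chosen element of seven-power order. -/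
noncomputable def σ : G := D.exists_sigma.choose

theorem σ_spec : (∀ a, a ∈ D.E ↔ D.σ * a * D.σ⁻¹ ∈ D.E) ∧ D.σ * D.t * D.σ⁻¹ ≠ D.t ∧
    ∃ k, D.σ ^ (7 ^ k) = 1 :=
  D.exists_sigma.choose_spec

/-- The seven involutions of `E`. -/
noncomputable def ε (i : ℕ) : G := D.σ ^ i * D.t * (D.σ ^ i)⁻¹

theorem ε_succ (i : ℕ) : D.ε (i + 1) = D.σ * D.ε i * D.σ⁻¹ := by
  simp only [ε, pow_succ', mul_inv_rev]; group

theorem ε_Y (i : ℕ) : D.ε i ∈ D.Y := by
  induction i with
  | zero => simpa [ε] using (show D.t ∈ D.Y from ⟨D.t_mem_X, D.t_mem⟩)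
  | succ n ih => rw [ε_succ]; exact ⟨D.conj_X ih.1 _, (D.σ_spec.1 _).mp ih.2⟩

theorem period : Function.minimalPeriod (fun a => D.σ * a * D.σ⁻¹) D.t = 7 := by
  obtain ⟨hE, hne, k, hk⟩ := D.σ_spec
  set c := fun a => D.σ * a * D.σ⁻¹ with hc
  have hit : ∀ i, c^[i] D.t = D.ε i := by
    intro i; induction i with
    | zero => simp [ε]
    | succ n ih => rw [Function.iterate_succ_apply', ih, D.ε_succ]
  have hper : Function.IsPeriodicPt c (7 ^ k) D.t := by
    show c^[7 ^ k] D.t = D.t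
    rw [hit, ε, hk]; group
  obtain ⟨i, -, hi⟩ := (Nat.dvd_prime_pow (by norm_num : Nat.Prime 7)).mp hper.minimalPeriod_dvd
  have hle : Function.minimalPeriod c D.t ≤ 7 := by
    let g : Fin (Function.minimalPeriod c D.t) → ↥D.Y := fun i => ⟨c^[i.val] D.t, by rw [hit]; exact D.ε_Y _⟩
    have hg : Function.Injective g := fun a b h =>
      Fin.ext (Function.iterate_injOn_Iio_minimalPeriod a.isLt b.isLt (congrArg Subtype.val h))
    have h := Nat.card_le_card_of_injective g hg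
    rwa [Nat.card_fin, Nat.card_coe_set_eq, D.ncard_Y] at h
  rcases Nat.lt_trichotomy i 1 with h | h | h
  · obtain rfl : i = 0 := by omega
    rw [pow_zero] at hi
    have := Function.isPeriodicPt_minimalPeriod c D.t
    rw [hi] at this
    exact absurd this hne
  · rw [hi, h]; norm_num
  · exfalso
    rw [hi] at hle
    have h49 : 7 ^ 2 ≤ 7 ^ i := Nat.pow_le_pow_right (by norm_num) h
    omega

theorem ε_mod (i : ℕ) : D.ε (i % 7) = D.ε i := by
  have hit : ∀ i, (fun a => D.σ * a * D.σ⁻¹)^[i] D.t = D.ε i := by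
    intro i; induction i with
    | zero => simp [ε]
    | succ n ih => rw [Function.iterate_succ_apply', ih, D.ε_succ]
  rw [← hit, ← hit, ← D.period, Function.iterate_mod_minimalPeriod_eq]

/-- The involutions of `E`, indexed modulo seven. -/
noncomputable def εF (i : Fin 7) : G := D.ε i.val

theorem εF_inj : Function.Injective D.εF := by
  have hit : ∀ i, (fun a => D.σ * a * D.σ⁻¹)^[i] D.t = D.ε i := by
    intro i; induction i with
    | zero => simp [ε]
    | succ n ih => rw [Function.iterate_succ_apply', ih, D.ε_succ]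
  intro a b hab
  refine Fin.ext (Function.iterate_injOn_Iio_minimalPeriod (f := fun a => D.σ * a * D.σ⁻¹) (x := D.t) ?_ ?_ ?_)
  · rw [Set.mem_Iio, D.period]; exact a.isLt
  · rw [Set.mem_Iio, D.period]; exact b.isLt
  · simp only [hit]; exact hab

theorem εF_surj {x : G} (hx : x ∈ D.E) (h1 : x ≠ 1) : ∃ i, D.εF i = x := by
  have hsub : Set.range D.εF ⊆ D.Y := by rintro _ ⟨i, rfl⟩; exact D.ε_Y _
  have h2 := Set.eq_of_subset_of_ncard_le hsub (by
    rw [D.ncard_Y, Set.ncard_range_of_injective D.εF_inj, Nat.card_eq_fintype_card, Fintype.card_fin])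
  have h3 : x ∈ Set.range D.εF := by rw [h2, D.Y_eq]; exact ⟨hx, h1⟩
  exact h3

theorem εF_mem (i : Fin 7) : D.εF i ∈ D.E := (D.ε_Y _).2

theorem εF_ne (i : Fin 7) : D.εF i ≠ 1 := D.X_ne (D.ε_Y _).1

theorem εF_zero : D.εF 0 = D.t := by simp [εF, ε]

theorem εF_add (i : Fin 7) (m : ℕ) :
    D.σ ^ m * D.εF i * (D.σ ^ m)⁻¹ = D.εF (i + Fin.ofNat 7 m) := by
  rw [εF, εF, ε, show (i + Fin.ofNat 7 m).val = (i.val + m) % 7 by simp [Fin.val_add, Fin.ofNat]]
  show _ = D.ε _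
  rw [D.ε_mod, ε, Nat.add_comm, pow_add]
  group

end Sys

end CfsgLib.WeakJ1
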